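import Cfsg.Agent.H29.OddGraph.Moves

set_option autoImplicit false

/-!
The last short component, and the common odd neighbour of two conjugate involutions of `Sₙ`.
-/

namespace CfsgLib.H29.OddGraph

open Equiv

variable {α : Type*} [Fintype α] [DecidableEq α] {s t u : Perm α}

/-- Absorbing the last short component into the orbit of a free good point. -/
theorem Inv.absorb (H : Inv s t u) (hno : ∀ z, ¬ Good (t * u) z → t z ≠ z ∧ u z ≠ z) {x : α}
    (hx : ¬ Good (t * u) x) (h2 : per (t * u) x = 2) {z : α} (hz : Good (t * u) z)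
    (hzs : u z = s z) :
    ∃ v, Inv s t v ∧ (∀ w, ¬ Good (t * v) w → ¬ Good (t * u) w) ∧
      ∀ w ∈ [x, u x, t x, t (u x)], Good (t * v) w := by
  obtain ⟨k1, k2, knd, b1, b2, b3⟩ := four H hno hx h2
  set ρ := t * u with hρ
  have bad4 : ∀ w ∈ [x, u x, t x, t (u x)], ¬ Good ρ w := by
    intro w hw
    simp only [List.mem_cons, List.not_mem_nil, or_false] at hw
    rcases hw with rfl | rfl | rfl | rfl <;> assumption
  have ngood : ∀ {w}, Good ρ w → w ∉ [x, u x, t x, t (u x)] := fun hw h => bad4 _ h hw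
  set L := per ρ z with hLd
  have hL : L % 2 = 1 := Nat.odd_iff.1 (good_iff.1 hz)
  have hR : ∀ w : α, ρ w = t (u w) := fun w => rfl
  have horb : ∀ i, Good ρ ((ρ ^ i) z) := good_move hz
  have hs : ∀ w, ¬ Good ρ w → ∀ w', u w = w' → s w = w' := fun w hw w' e => by rw [← H.bad w hw, e]
  simp only [List.nodup_cons, List.mem_cons, List.not_mem_nil, or_false, not_or, List.nodup_nil,
    and_true, not_false_eq_true] at knd
  obtain ⟨⟨n1, n2, n3⟩, ⟨n4, n5⟩, n6⟩ := knd
  have gz := ngood hz
  simp only [List.mem_cons, List.not_mem_nil, or_false, not_or] at gz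
  by_cases huz : u z = z
  · -- a free fixed point
    have avoid : ∀ v : Perm α, (∀ w, w ≠ x → w ≠ u x → w ≠ z → v w = u w) →
        ∀ i, 0 < i → i < L → v ((ρ ^ i) z) = u ((ρ ^ i) z) := by
      intro v vo i h1 h2
      have := ngood (horb i)
      simp only [List.mem_cons, List.not_mem_nil, or_false, not_or] at this
      exact vo _ this.1 this.2.1 (pow_ne_self h1 h2)
    have cyc : ∀ v : Perm α, v x = x → v (u x) = z → v z = u x →
        (∀ w, w ≠ x → w ≠ u x → w ≠ z → v w = u w) →
        ((t * v) ^ 1) x = t x ∧ ((t * v) ^ 2) x = u x ∧ ((t * v) ^ (L + 2)) x = z ∧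
          ((t * v) ^ (L + 3)) x = t (u x) ∧ ((t * v) ^ (L + 4)) x = x := by
      intro v v1 v2 v3 vo
      have qy : v (t x) = t (u x) := by rw [vo _ (Ne.symm n2) (Ne.symm n4) (Ne.symm gz.2.2.1), k2]
      have qr : v (t (u x)) = t x := by
        rw [vo _ (Ne.symm n3) (Ne.symm n5) (Ne.symm gz.2.2.2), ← k2, invol_apply H.uu]
      have c1 : ((t * v) ^ 1) x = t x := by rw [pow_one, Perm.mul_apply, v1]
      have c2 : ((t * v) ^ 1) (t x) = u x := by
        rw [pow_one, Perm.mul_apply, qy, invol_apply H.tt]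
      have c3 : ((t * v) ^ 1) (u x) = (ρ ^ 1) z := by
        rw [pow_one, pow_one, Perm.mul_apply, v2, hR, huz]
      have c4 : ((t * v) ^ (L - 1)) ((ρ ^ 1) z) = z := by
        rw [seg' H.uu _ fun i hi => ?_]
        · rw [← hρ, hLd]; exact pow_back ρ z (by omega)
        · rw [← hρ, pow_pow_apply]; exact avoid v vo _ (by omega) (by omega)
      have c5 : ((t * v) ^ 1) z = t (u x) := by rw [pow_one, Perm.mul_apply, v3]
      have c6 : ((t * v) ^ 1) (t (u x)) = x := by
        rw [pow_one, Perm.mul_apply, qr, invol_apply H.tt]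
      have d2 := pow_chain c1 c2
      have d4 := pow_chain (pow_chain d2 c3) c4
      rw [show 1 + 1 + 1 + (L - 1) = L + 2 by omega] at d4
      have d5 := pow_chain d4 c5
      have d6 := pow_chain d5 c6
      exact ⟨c1, d2, d4, d5, d6⟩
    obtain ⟨v, hI, v1, v2, v3, vo, hbad⟩ := H.swap_move n1 (Ne.symm gz.1) (Ne.symm gz.2.1) rfl huz
      (hs x hx _ rfl) (hzs.symm.trans huz) (fun v v1 v2 v3 vo => by
        obtain ⟨-, c2, c3, -, c5⟩ := cyc v v1 v2 v3 vo
        refine ⟨⟨_, Nat.odd_iff.2 (by omega), c5⟩, ?_, ?_⟩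
        · rw [← c2]; exact good_cycle (by omega) c5 _
        · rw [← c3]; exact good_cycle (by omega) c5 _)
    refine ⟨v, hI, fun w hw => (hbad w hw).2, ?_⟩
    obtain ⟨c1, c2, -, c4, c5⟩ := cyc v v1 v2 v3 vo
    intro w hw
    simp only [List.mem_cons, List.not_mem_nil, or_false] at hw
    rcases hw with rfl | rfl | rfl | rfl
    · exact ⟨_, Nat.odd_iff.2 (by omega), c5⟩
    · rw [← c2]; exact good_cycle (by omega) c5 _
    · rw [← c1]; exact good_cycle (by omega) c5 _
    · rw [← c4]; exact good_cycle (by omega) c5 _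
  · -- a free edge
    set z' := u z with hz'
    have hgz' : Good ρ z' := (good_congr (per_u H.tt H.uu z)).2 hz
    have gz' := ngood hgz'
    simp only [List.mem_cons, List.not_mem_nil, or_false, not_or] at gz'
    have hLz' : per ρ z' = L := per_u H.tt H.uu z
    have nd : [u x, x, t (u x), t x, z', z].Nodup := by
      simp only [List.nodup_cons, List.mem_cons, List.not_mem_nil, or_false, not_or, List.nodup_nil,
        and_true, not_false_eq_true]
      exact ⟨⟨(Ne.symm n1), n5, n4, Ne.symm gz'.2.1, Ne.symm gz.2.1⟩,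
        ⟨n3, n2, Ne.symm gz'.1, Ne.symm gz.1⟩, ⟨(Ne.symm n6), Ne.symm gz'.2.2.2, Ne.symm gz.2.2.2⟩,
        ⟨Ne.symm gz'.2.2.1, Ne.symm gz.2.2.1⟩, huz⟩
    have uz' : u z' = z := invol_apply H.uu z
    have ur : u (t (u x)) = t x := by rw [← k2, invol_apply H.uu]
    -- avoidance
    have avoid : ∀ v : Perm α, (∀ w, w ∉ [u x, x, t (u x), t x, z', z] → v w = u w) →
        ∀ w, Good ρ w → w ≠ z → w ≠ z' → v w = u w := by
      intro v vo w hw h1 h2
      have := ngood hw
      simp only [List.mem_cons, List.not_mem_nil, or_false, not_or] at this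
      exact vo _ (by simp only [List.mem_cons, List.not_mem_nil, or_false, not_or]
                     exact ⟨this.2.1, this.1, this.2.2.2, this.2.2.1, h2, h1⟩)
    have cyc : ∀ v : Perm α, v x = t (u x) → v (t (u x)) = x → v (t x) = z → v z = t x →
        v z' = u x → v (u x) = z' →
        (∀ w, w ∉ [u x, x, t (u x), t x, z', z] → v w = u w) →
        ∀ w ∈ [u x, x, t (u x), t x, z', z], Good (t * v) w := by
      intro v v1 v2 v3 v4 v5 v6 vo
      have hv := avoid v vo
      have c1 : ((t * v) ^ 1) x = u x := by rw [pow_one, Perm.mul_apply, v1, invol_apply H.tt]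
      have c2 : ((t * v) ^ 1) (u x) = (ρ ^ 1) z := by rw [pow_one, pow_one, Perm.mul_apply, v6, hR]
      have c3 : ((t * v) ^ 1) z = x := by rw [pow_one, Perm.mul_apply, v4, invol_apply H.tt]
      have e1 : ((t * v) ^ 1) (t (u x)) = t x := by rw [pow_one, Perm.mul_apply, v2]
      have e2 : ((t * v) ^ 1) (t x) = (ρ ^ 1) z' := by
        rw [pow_one, pow_one, Perm.mul_apply, v3, hR, uz']
      have e3 : ((t * v) ^ 1) z' = t (u x) := by rw [pow_one, Perm.mul_apply, v5]
      by_cases hj : ∃ j, j < L ∧ (ρ ^ j) z = z'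
      · obtain ⟨j, hjL, hje⟩ := hj
        have hj0 : j ≠ 0 := by rintro rfl; exact huz hje.symm
        have m1 : ((t * v) ^ (j - 1)) ((ρ ^ 1) z) = z' := by
          rw [seg' H.uu _ fun i hi => ?_]
          · rw [← hρ, pow_pow_apply, show j - 1 + 1 = j by omega, hje]
          · rw [← hρ, pow_pow_apply]
            refine hv _ (horb _) (pow_ne_self (by omega) (by omega)) fun e => ?_
            rw [← hje] at e
            exact absurd (pow_inj (by omega) (by omega) e) (by omega)
        have m2 : ((t * v) ^ (L - j - 1)) ((ρ ^ 1) z') = z := by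
          rw [seg' H.uu _ fun i hi => ?_]
          · rw [← hρ, pow_pow_apply, ← hje, pow_pow_apply, show L - j - 1 + 1 + j = L by omega, hLd,
              pow_per]
          · rw [← hρ, pow_pow_apply]
            refine hv _ (good_move hgz' _) (fun e => ?_) (pow_ne_self (by omega) (by omega))
            rw [← hje, pow_pow_apply] at e
            exact pow_ne_self (show 0 < i + 1 + j by omega) (show i + 1 + j < per ρ z by omega) e
        have q1 := pow_chain c1 c2
        have q2 := pow_chain q1 m1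
        have q3 := pow_chain q2 e3
        have q4 := pow_chain q3 e1
        have q5 := pow_chain (pow_chain q4 e2) m2
        have q6 := pow_chain q5 c3
        have hodd : (1 + 1 + (j - 1) + 1 + 1 + 1 + (L - j - 1) + 1) % 2 = 1 := by omega
        intro w hw
        simp only [List.mem_cons, List.not_mem_nil, or_false] at hw
        rcases hw with rfl | rfl | rfl | rfl | rfl | rfl
        · rw [← c1]; exact good_cycle hodd q6 _
        · exact ⟨_, Nat.odd_iff.2 hodd, q6⟩
        · rw [← q3]; exact good_cycle hodd q6 _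
        · rw [← q4]; exact good_cycle hodd q6 _
        · rw [← q2]; exact good_cycle hodd q6 _
        · rw [← q5]; exact good_cycle hodd q6 _
      · push Not at hj
        have hne : ∀ i, (ρ ^ i) z ≠ z' := fun i e => hj (i % L) (Nat.mod_lt _ (by omega)) (by
          conv_rhs => rw [← e, ← Nat.mod_add_div i L, ← pow_pow_apply,
            (pow_apply_eq_self_iff ρ z (L * (i / L))).2 (dvd_mul_right _ _)])
        have m1 : ((t * v) ^ (L - 1)) ((ρ ^ 1) z) = z := by
          rw [seg' H.uu _ fun i hi => ?_]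
          · rw [← hρ, hLd]; exact pow_back ρ z (by omega)
          · rw [← hρ, pow_pow_apply]
            exact hv _ (horb _) (pow_ne_self (by omega) (by omega)) (hne _)
        have m2 : ((t * v) ^ (L - 1)) ((ρ ^ 1) z') = z' := by
          rw [seg' H.uu _ fun i hi => ?_]
          · rw [← hρ, ← hLz']; exact pow_back ρ z' (by omega)
          · rw [← hρ, pow_pow_apply]
            exact hv _ (good_move hgz' _) (fun e => orbit_ne hne 0 _ e.symm)
              (pow_ne_self (by omega) (by omega))
        have p1 := pow_chain (pow_chain c1 c2) m1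
        have p2 := pow_chain p1 c3
        have r1 := pow_chain (pow_chain e1 e2) m2
        have r2 := pow_chain r1 e3
        have hodd : (1 + 1 + (L - 1) + 1) % 2 = 1 := by omega
        intro w hw
        simp only [List.mem_cons, List.not_mem_nil, or_false] at hw
        rcases hw with rfl | rfl | rfl | rfl | rfl | rfl
        · rw [← c1]; exact good_cycle hodd p2 _
        · exact ⟨_, Nat.odd_iff.2 hodd, p2⟩
        · exact ⟨_, Nat.odd_iff.2 hodd, r2⟩
        · rw [← e1]; exact good_cycle hodd r2 _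
        · rw [← r1]; exact good_cycle hodd r2 _
        · rw [← p1]; exact good_cycle hodd p2 _
    obtain ⟨v, hI, vo, ⟨v1, v2, v3, v4, v5, v6⟩, hbad⟩ := H.hex_move nd (invol_apply H.uu x) ur uz'
      (hs _ b1 _ (invol_apply H.uu x)) (hs _ b3 _ ur)
      (by rw [hzs, invol_apply H.ss])
      (fun v v1 v2 v3 v4 v5 v6 vo => cyc v v1 v2 v3 v4 v5 v6 vo)
    refine ⟨v, hI, fun w hw => (hbad w hw).2, fun w hw => ?_⟩
    apply cyc v v1 v2 v3 v4 v5 v6 vo
    simp only [List.mem_cons, List.not_mem_nil, or_false] at hw ⊢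
    tauto

/-- The construction. -/
theorem Inv.finish (h5 : 5 ≤ Fintype.card α) : ∀ (n : ℕ) (u : Perm α), Inv s t u →
    (Finset.univ.filter fun x => ¬ Odd (per (t * u) x)).card = n →
    (u = s ∨ ∃ z, Good (t * u) z ∧ u z = s z) →
    ∃ v : Perm α, v * v = 1 ∧ Odd (orderOf (s * v)) ∧ Odd (orderOf (t * v)) := by
  intro n
  induction n using Nat.strong_induction_on with
  | _ n ih =>
  intro u H hn hfree
  by_cases hall : ∀ x, Good (t * u) x
  · exact ⟨u, H.uu, H.odd, odd_orderOf hall⟩
  push Not at hall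
  obtain ⟨x₀, hx₀⟩ := hall
  have next' : Progress s t u → ∃ v : Perm α, v * v = 1 ∧ Odd (orderOf (s * v)) ∧ Odd (orderOf (t * v)) := by
    rintro ⟨v, hI, hsub, ⟨x, hx, hx'⟩, z, hz⟩
    refine ih _ ?_ v hI rfl (Or.inr ⟨z, hz⟩)
    rw [← hn]
    refine Finset.card_lt_card (Finset.ssubset_iff_subset_ne.2 ⟨fun w hw => ?_, fun e => ?_⟩)
    · simp only [Finset.mem_filter, Finset.mem_univ, true_and, ← good_iff] at hw ⊢
      exact hsub w hw
    · have : x ∈ Finset.univ.filter fun x => ¬ Odd (per (t * v) x) := by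
        rw [e]; simp only [Finset.mem_filter, Finset.mem_univ, true_and, ← good_iff]; exact hx
      simp only [Finset.mem_filter, Finset.mem_univ, true_and, ← good_iff] at this
      exact this hx'
  by_cases hfix : ∃ x, ¬ Good (t * u) x ∧ (t x = x ∨ u x = x)
  · have ht : ∃ x, ¬ Good (t * u) x ∧ t x = x := by
      obtain ⟨x, hx, h | h⟩ := hfix
      · exact ⟨x, hx, h⟩
      · exact H.bad_fix_iff.2 ⟨x, hx, h⟩
    obtain ⟨a, ha, hta⟩ := ht
    obtain ⟨w, hw, huw⟩ := H.bad_fix_iff.1 ⟨a, ha, hta⟩
    exact next' (H.path_move ha hta hw huw)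
  push Not at hfix
  by_cases hlong : ∃ x, ¬ Good (t * u) x ∧ per (t * u) x ≠ 2
  · obtain ⟨x, hx, h2⟩ := hlong
    exact next' (H.cycle_move hfix hx h2)
  push Not at hlong
  by_cases hpair : ∃ x', ¬ Good (t * u) x' ∧ x' ∉ [x₀, u x₀, t x₀, t (u x₀)]
  · obtain ⟨x', hx', hout⟩ := hpair
    exact next' (H.pair_move hfix hx₀ (hlong _ hx₀) hx' (hlong _ hx') hout)
  push Not at hpair
  obtain ⟨z, hz, hzs⟩ : ∃ z, Good (t * u) z ∧ u z = s z := by
    rcases hfree with rfl | h
    · obtain ⟨z, -, hz⟩ := Finset.exists_mem_notMem_of_card_lt_card (t := Finset.univ)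
        (s := [x₀, u x₀, t x₀, t (u x₀)].toFinset)
        (lt_of_le_of_lt (List.toFinset_card_le _) (by simp; omega))
      exact ⟨z, not_not.1 fun h => hz (List.mem_toFinset.2 (hpair z h)), rfl⟩
    · exact h
  obtain ⟨v, hI, hsub, hgood⟩ := H.absorb hfix hx₀ (hlong _ hx₀) hz hzs
  refine ⟨v, hI.uu, hI.odd, odd_orderOf fun w => ?_⟩
  by_contra hw
  exact hw (hgood w (hpair w (hsub w hw)))

/-- Two conjugate involutions of `Sₙ`, `n ≥ 5`, have a common odd neighbour. -/
theorem exists_between_perm (h5 : 5 ≤ Fintype.card α) {s t : Perm α} (hs : orderOf s = 2)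
    (ht : orderOf t = 2) (hc : IsConj t s) :
    ∃ u, orderOf u = 2 ∧ Odd (orderOf (s * u)) ∧ Odd (orderOf (u * t)) := by
  have ss : s * s = 1 := by rw [← pow_two, ← hs, pow_orderOf_eq_one]
  have tt : t * t = 1 := by rw [← pow_two, ← ht, pow_orderOf_eq_one]
  obtain ⟨c, hc⟩ := isConj_iff.1 hc
  have H : Inv s t s := ⟨ss, tt, ss, by rw [ss, orderOf_one]; exact odd_one,
    hc ▸ card_fix_conj c t, fun x _ => rfl⟩
  obtain ⟨v, vv, h1, h2⟩ := Inv.finish h5 _ s H rfl (Or.inl rfl)
  refine ⟨v, orderOf_eq_prime (by rw [pow_two]; exact vv) ?_, h1, ?_⟩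
  · rintro rfl
    rw [mul_one, hs] at h1
    exact absurd h1 (by decide)
  · have e : v * t = (t * v)⁻¹ := by
      rw [mul_inv_rev, inv_eq_of_mul_eq_one_right vv, inv_eq_of_mul_eq_one_right tt]
    rwa [e, orderOf_inv]

end CfsgLib.H29.OddGraph

namespace CfsgLib.H29.OddGraph

open Equiv

variable {α : Type*} [Fintype α] [DecidableEq α]

/-- An involution of `Sₙ`, `n ≥ 5`, commutes with a different conjugate of itself. -/
theorem exists_commuting_conj (h5 : 5 ≤ Fintype.card α) {t : Perm α} (ht : orderOf t = 2) :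
    ∃ y, IsConj t y ∧ y ≠ t ∧ y * t = t * y := by
  have tt : t * t = 1 := by rw [← pow_two, ← ht, pow_orderOf_eq_one]
  obtain ⟨a, ha⟩ : ∃ a, t a ≠ a := by
    by_contra! h
    rw [show t = 1 from Equiv.ext h, orderOf_one] at ht
    omega
  have tta : t (t a) = a := invol_apply tt a
  by_cases h2 : ∃ c, c ≠ a ∧ c ≠ t a ∧ t c ≠ c
  · obtain ⟨c, hca, hcb, hc⟩ := h2
    have hda : t c ≠ a := fun e => hcb (by rw [← e, invol_apply tt])
    have hdb : t c ≠ t a := fun e => hca (t.injective e)
    refine ⟨_, isConj_iff.2 ⟨swap (t a) c, rfl⟩, fun e => ?_, ?_⟩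
    · have := congrArg (fun g : Perm α => g a) e
      simp [swap_apply_of_ne_of_ne (Ne.symm ha) (Ne.symm hca)] at this
      exact hcb this
    · ext z
      have ttc := invol_apply tt c
      by_cases z1 : z = a
      · subst z1; simp [swap_apply_of_ne_of_ne (Ne.symm ha) (Ne.symm hca), invol_apply tt,
          swap_apply_of_ne_of_ne hdb hc]
      by_cases z2 : z = t a
      · subst z2; simp [invol_apply tt, swap_apply_of_ne_of_ne (Ne.symm ha) (Ne.symm hca),
          swap_apply_of_ne_of_ne hdb hc]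
      by_cases z3 : z = c
      · subst z3; simp [invol_apply tt, swap_apply_of_ne_of_ne hdb hc,
          swap_apply_of_ne_of_ne (Ne.symm ha) (Ne.symm hca)]
      by_cases z4 : z = t c
      · subst z4; simp [invol_apply tt, swap_apply_of_ne_of_ne hdb hc,
          swap_apply_of_ne_of_ne (Ne.symm ha) (Ne.symm hca)]
      have o2 : t z ≠ t a := fun e => z1 (t.injective e)
      have o3 : t z ≠ c := fun e => z4 (by rw [← e, invol_apply tt])
      simp [swap_apply_of_ne_of_ne z2 z3, swap_apply_of_ne_of_ne o2 o3, invol_apply tt]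
  · push Not at h2
    obtain ⟨c, d, hc, hd, hcd⟩ := Finset.one_lt_card_iff.1
      (show 1 < (Finset.univ \ {a, t a}).card by
        rw [Finset.card_sdiff_of_subset (Finset.subset_univ _), Finset.card_univ,
          Finset.card_pair ha.symm]
        omega)
    simp only [Finset.mem_sdiff, Finset.mem_univ, Finset.mem_insert, Finset.mem_singleton, true_and,
      not_or] at hc hd
    have tc := h2 c hc.1 hc.2
    have td := h2 d hd.1 hd.2
    refine ⟨_, isConj_iff.2 ⟨swap a c * swap (t a) d, rfl⟩, fun e => ?_, ?_⟩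
    · have := congrArg (fun g : Perm α => g a) e
      simp [Perm.mul_apply, swap_apply_of_ne_of_ne hc.2 hcd, tc,
        swap_apply_of_ne_of_ne (Ne.symm ha) (Ne.symm hd.1)] at this
      exact ha this.symm
    · ext z
      have f1 := swap_apply_of_ne_of_ne (Ne.symm ha) (Ne.symm hd.1)
      have f2 := swap_apply_of_ne_of_ne ha (Ne.symm hc.2)
      have f3 := swap_apply_of_ne_of_ne hc.2 hcd
      have f4 := swap_apply_of_ne_of_ne hd.1 (Ne.symm hcd)
      by_cases z1 : z = a
      · subst z1; simp [f1, f2, f3, f4, tta, tc, td]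
      by_cases z2 : z = t a
      · subst z2; simp [f1, f2, f3, f4, tta, tc, td]
      by_cases z3 : z = c
      · subst z3; simp [f1, f2, f3, f4, tta, tc, td]
      by_cases z4 : z = d
      · subst z4; simp [f1, f2, f3, f4, tta, tc, td]
      have g1 := h2 z z1 z2
      simp [g1, swap_apply_of_ne_of_ne z1 z3, swap_apply_of_ne_of_ne z2 z4]

end CfsgLib.H29.OddGraph
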