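import Mathlib

set_option autoImplicit false

/-!
Finite field facts for the odd product graph of involutions.
-/

namespace CfsgLib.H29.OddGraph

variable {F : Type*} [Field F]

/-- For `q ≡ 3 (mod 4)` a sum `y² + d²` with `d ≠ 0` takes nonsquare values. -/
theorem exists_nonsquare_sum [Finite F] (hns : ¬ IsSquare (-1 : F)) (d : F) (hd : d ≠ 0) :
    ∃ y : F, y ≠ 0 ∧ ¬ IsSquare (y ^ 2 + d ^ 2) := by
  by_contra! h
  obtain ⟨p, hp⟩ := CharP.exists F
  haveI := Fintype.ofFinite F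
  haveI : Fact p.Prime := ⟨CharP.char_is_prime F p⟩
  have hall : ∀ y : F, IsSquare (y ^ 2 + d ^ 2) := fun y => by
    by_cases hy : y = 0
    · exact ⟨d, by rw [hy]; ring⟩
    · exact h y hy
  have hn : ∀ n : ℕ, IsSquare ((n : F) * d ^ 2) := by
    intro n
    induction n with
    | zero => simp
    | succ n ih =>
      obtain ⟨y, hy⟩ := ih
      have := hall y
      rwa [show y ^ 2 + d ^ 2 = ((n + 1 : ℕ) : F) * d ^ 2 by push_cast; rw [sq y, ← hy]; ring] at this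
  obtain ⟨y, hy⟩ := hn (p - 1)
  refine hns ⟨y / d, ?_⟩
  rw [Nat.cast_sub (Fact.out : p.Prime).one_le, CharP.cast_eq_zero, Nat.cast_one, zero_sub] at hy
  rw [div_mul_div_comm, eq_div_iff (mul_ne_zero hd hd), ← hy]
  ring

/-- The key point: the quartic `V² - 2cV + 1` takes both square classes away from `0, ±1`. -/
theorem exists_V [Fintype F] (hns : ¬ IsSquare (-1 : F)) (hq : 4 ≤ Fintype.card F) {c d : F}
    (hd : d ≠ 0) (hcd : 1 - c ^ 2 = d ^ 2) :
    (∃ V : F, V ≠ 0 ∧ IsSquare ((V - c) ^ 2 + d ^ 2)) ∧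
      ∃ V : F, V ≠ 0 ∧ ¬ IsSquare ((V - c) ^ 2 + d ^ 2) := by
  have h2 : (2 : F) ≠ 0 := fun e => hns ⟨1, by
    rw [mul_one, neg_eq_iff_add_eq_zero, one_add_one_eq_two, e]⟩
  constructor
  · by_cases hc : c = 0
    · classical
      obtain ⟨x, hx⟩ := Finset.exists_mem_notMem_of_card_lt_card (s := ({0, 1, -1} : Finset F))
        (t := Finset.univ) (lt_of_le_of_lt Finset.card_le_three (by rw [Finset.card_univ]; omega))
      simp only [Finset.mem_insert, Finset.mem_singleton, not_or] at hx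
      obtain ⟨-, hx0, hx1, hxn⟩ := hx
      subst hc
      refine ⟨d * (x - 1 / x) / 2, ?_, ⟨d * (x + 1 / x) / 2, by field_simp; ring⟩⟩
      intro e
      rcases mul_eq_zero.mp ((div_eq_zero_iff.mp e).resolve_right h2) with e' | e'
      · exact hd e'
      · field_simp at e'
        rcases mul_eq_zero.mp (show (x - 1) * (x + 1) = 0 by linear_combination e') with e'' | e''
        · exact hx1 (sub_eq_zero.mp e'')
        · exact hxn (eq_neg_of_add_eq_zero_left e'')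
    · exact ⟨c, hc, d, by ring⟩
  · obtain ⟨y, -, hy⟩ := exists_nonsquare_sum hns d hd
    refine ⟨y + c, fun e => hy ⟨1, ?_⟩, by rwa [add_sub_cancel_right]⟩
    rw [eq_neg_of_add_eq_zero_left e, ← hcd]
    ring

/-- The parameter of the common neighbour: `a² = 1 + r²`, and `-(k + 2r²)k` a square. -/
theorem exists_param [Fintype F] (hns : ¬ IsSquare (-1 : F)) (hq : 4 ≤ Fintype.card F) {c : F}
    (hc : IsSquare (1 - c ^ 2)) (hc0 : 1 - c ^ 2 ≠ 0) :
    ∃ (a r s c' : F), (c' = c ∨ c' = -c) ∧ r ≠ 0 ∧ a ^ 2 = 1 + r ^ 2 ∧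
      s ^ 2 = -((1 - c') + 2 * r ^ 2) * (1 - c') := by
  obtain ⟨d, hd'⟩ := hc
  have hd : d ≠ 0 := fun e => hc0 (by rw [hd', e, mul_zero])
  have hcd : 1 - c ^ 2 = d ^ 2 := by rw [hd', sq]
  have hns' : ∀ x : F, x ≠ 0 → ¬ IsSquare x → IsSquare (-x) := by
    classical
    intro x hx hxs
    refine (quadraticChar_one_iff_isSquare (neg_ne_zero.mpr hx)).mp ?_
    rw [neg_eq_neg_one_mul, map_mul, quadraticChar_neg_one_iff_not_isSquare.mpr hns,
      quadraticChar_neg_one_iff_not_isSquare.mpr hxs]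
    norm_num
  have h2 : (2 : F) ≠ 0 := fun e => hns ⟨1, by
    rw [mul_one, neg_eq_iff_add_eq_zero, one_add_one_eq_two, e]⟩
  have hk : 1 - c ≠ 0 := fun e => hc0 (by rw [show c = 1 from (sub_eq_zero.mp e).symm]; ring)
  have hk' : 1 + c ≠ 0 := fun e => hc0 (by rw [eq_neg_of_add_eq_zero_right e]; ring)
  have hPne : ∀ V : F, (V - c) ^ 2 + d ^ 2 ≠ 0 := fun V e => hns ⟨(V - c) / d, by
    rw [div_mul_div_comm, eq_div_iff (mul_ne_zero hd hd)]; linear_combination -e⟩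
  obtain ⟨V, hV0, hV⟩ : ∃ V : F, V ≠ 0 ∧ IsSquare (-2 * (1 - c) * ((V - c) ^ 2 + d ^ 2)) := by
    obtain ⟨⟨V1, hV10, hV1⟩, V2, hV20, hV2⟩ := exists_V hns hq hd hcd
    by_cases hs : IsSquare (-2 * (1 - c))
    · exact ⟨V1, hV10, hs.mul hV1⟩
    · refine ⟨V2, hV20, ?_⟩
      have h := (hns' _ (mul_ne_zero (mul_ne_zero (neg_ne_zero.mpr h2) one_ne_zero) hk)
        (by rwa [mul_one])).mul (hns' _ (hPne V2) hV2)
      rwa [mul_one, neg_mul_neg] at h
  have hV1 : V ≠ 1 := by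
    rintro rfl
    refine hns ?_
    obtain ⟨w, hw⟩ := hV
    exact ⟨w / (2 * (1 - c)), by field_simp; linear_combination hw + (-2 * (1 - c)) * hcd⟩
  have hVn : V ≠ -1 := by
    rintro rfl
    refine hns ?_
    obtain ⟨w, hw⟩ := hV
    exact ⟨w / (2 * d), by field_simp; linear_combination hw + (2 * (1 + c)) * hcd⟩
  have key : ∃ (v c' : F), (c' = c ∨ c' = -c) ∧ v ≠ 0 ∧ v ^ 2 ≠ 1 ∧
      IsSquare (-2 * (1 - c') * (v ^ 4 - 2 * c' * v ^ 2 + 1)) := by
    by_cases hVs : IsSquare V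
    · obtain ⟨v, rfl⟩ := hVs
      refine ⟨v, c, Or.inl rfl, fun e => hV0 (by rw [e, mul_zero]), by rwa [sq], ?_⟩
      rwa [show v ^ 4 - 2 * c * v ^ 2 + 1 = (v * v - c) ^ 2 + d ^ 2 by
        linear_combination hcd]
    · obtain ⟨v, hv⟩ := hns' V hV0 hVs
      refine ⟨v, -c, Or.inr rfl, fun e => hV0 (neg_eq_zero.mp (by rw [hv, e, mul_zero])),
        fun e => hVn (by rw [← e, sq, ← hv, neg_neg]), ?_⟩
      obtain ⟨w, hw⟩ := hV
      refine ⟨w * d / (1 - c), ?_⟩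
      have hV' : V = -(v * v) := by rw [← hv, neg_neg]
      subst hV'
      field_simp
      linear_combination d ^ 2 * hw + -2 * (1 - c) * (v ^ 4 + 2 * c * v ^ 2 + 1 + d ^ 2) * hcd
  obtain ⟨v, c', hc', hv0, hv1, w, hw⟩ := key
  refine ⟨(v + 1 / v) / 2, (v - 1 / v) / 2, w / (2 * v), c', hc', ?_, by field_simp; ring, ?_⟩
  · intro e
    apply hv1
    field_simp at e
    linear_combination e
  · field_simp
    linear_combination -hw

end CfsgLib.H29.OddGraph
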