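import Mathlib

set_option autoImplicit false

/-!
The odd product graph on a class of involutions: a criterion for diameter two.
-/

namespace CfsgLib.H29.OddGraph

variable {G : Type*} [Group G]

/-- Involutions with a product of odd order are conjugate. -/
theorem isConj_of_odd {s u : G} (hs : s * s = 1) (hu : u * u = 1) (h : Odd (orderOf (s * u))) :
    IsConj s u := by
  obtain ⟨k, hk⟩ := h
  set d := s * u with hd
  have hsd : s * d * s = d⁻¹ := by
    rw [hd, mul_inv_rev, inv_eq_of_mul_eq_one_right hs, inv_eq_of_mul_eq_one_right hu]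
    rw [← mul_assoc s s u, hs, one_mul]
  have hsdn : ∀ n : ℕ, s * d ^ n * s = (d⁻¹) ^ n := fun n => by
    have := conj_pow (a := s) (b := d) (i := n)
    rw [inv_eq_of_mul_eq_one_right hs, hsd] at this
    exact this.symm
  have h1 : d ^ (2 * k + 1) = 1 := hk ▸ pow_orderOf_eq_one d
  rw [isConj_iff]
  refine ⟨d ^ k, ?_⟩
  have e : d ^ k * s = s * (d ^ k)⁻¹ := by
    calc d ^ k * s = s * s * (d ^ k * s) := by rw [hs, one_mul]
      _ = s * (s * d ^ k * s) := by group
      _ = s * (d ^ k)⁻¹ := by rw [hsdn, inv_pow]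
  rw [e, mul_assoc, ← mul_inv_rev, ← pow_add]
  have e2 : (d ^ (k + k))⁻¹ = d := inv_eq_of_mul_eq_one_right (by rw [← pow_succ, ← two_mul, h1])
  rw [e2, hd, ← mul_assoc, hs, one_mul]

theorem graph_diam_two' {t : G} (ht : orderOf t = 2)
    (hbtw : ∀ s v : G, IsConj t s → IsConj t v → ¬ Odd (orderOf (s * v)) →
      ∃ u, orderOf u = 2 ∧ Odd (orderOf (s * u)) ∧ Odd (orderOf (u * v)))
    (hcomm : ∃ y, IsConj t y ∧ y ≠ t ∧ y * t = t * y) :
    (SimpleGraph.fromRel fun x y : {x : G // IsConj t x} => Odd (orderOf (x.1 * y.1))).Connected ∧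
      (SimpleGraph.fromRel fun x y : {x : G // IsConj t x} =>
        Odd (orderOf (x.1 * y.1))).diam = 2 := by
  set Γ := SimpleGraph.fromRel fun x y : {x : G // IsConj t x} => Odd (orderOf (x.1 * y.1))
  have sq : ∀ {x : G}, orderOf x = 2 → x * x = 1 := fun {x} hx => by
    rw [← pow_two, ← hx, pow_orderOf_eq_one]
  have ord : ∀ x : {x : G // IsConj t x}, orderOf x.1 = 2 := fun x => by
    obtain ⟨c, hc⟩ := isConj_iff.mp x.2
    rw [← hc, ← MulAut.conj_apply, ← ht]
    exact orderOf_injective (MulAut.conj c).toMonoidHom (MulAut.conj c).injective t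
  have adj : ∀ x y : {x : G // IsConj t x}, x ≠ y → Odd (orderOf (x.1 * y.1)) → Γ.Adj x y :=
    fun x y h1 h2 => ⟨h1, Or.inl h2⟩
  have walk : ∀ x y, ∃ w : Γ.Walk x y, w.length ≤ 2 := by
    intro x y
    by_cases hxy : x = y
    · subst hxy; exact ⟨.nil, by simp⟩
    by_cases hodd : Odd (orderOf (x.1 * y.1))
    · exact ⟨(adj x y hxy hodd).toWalk, by simp [SimpleGraph.Adj.toWalk]⟩
    obtain ⟨u, hu, h1, h2⟩ := hbtw x.1 y.1 x.2 y.2 hodd
    have hc : IsConj t u := x.2.trans (isConj_of_odd (sq (ord x)) (sq hu) h1)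
    have n1 : x ≠ ⟨u, hc⟩ := fun e => hodd (by
      rw [show x.1 = u from congrArg Subtype.val e]; exact h2)
    have n2 : (⟨u, hc⟩ : {x : G // IsConj t x}) ≠ y := fun e => hodd (by
      rw [← show u = y.1 from congrArg Subtype.val e]; exact h1)
    exact ⟨.cons (adj _ _ n1 h1) (.cons (adj _ _ n2 h2) .nil), by simp⟩
  obtain ⟨y, hyc, hyt, hc⟩ := hcomm
  have hy : orderOf y = 2 := ord ⟨y, hyc⟩
  have hne : ∀ {a b : G}, orderOf a = 2 → orderOf b = 2 → a ≠ b → a * b = b * a →
      ¬ Odd (orderOf (a * b)) := by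
    intro a b ha hb hab h hodd
    have h2 : (a * b) ^ 2 = 1 := by
      rw [pow_two]
      calc a * b * (a * b) = a * (b * a) * b := by group
        _ = a * a * (b * b) := by rw [← h]; group
        _ = 1 := by rw [sq ha, sq hb, one_mul]
    rcases (Nat.dvd_prime Nat.prime_two).mp (orderOf_dvd_of_pow_eq_one h2) with e | e
    · apply hab
      rw [orderOf_eq_one_iff] at e
      rw [eq_inv_of_mul_eq_one_left e, inv_eq_of_mul_eq_one_right (sq hb)]
    · rw [e] at hodd; exact absurd hodd (by decide)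
  have hev := hne ht hy hyt.symm hc.symm
  have hne' : (⟨t, IsConj.refl t⟩ : {x : G // IsConj t x}) ≠ ⟨y, hyc⟩ :=
    fun e => hyt (congrArg Subtype.val e).symm
  haveI : Nontrivial {x : G // IsConj t x} := ⟨_, _, hne'⟩
  have hconn : Γ.Connected :=
    { preconnected := fun a b => ⟨(walk a b).choose⟩ }
  refine ⟨hconn, ?_⟩
  have hle : Γ.ediam ≤ 2 := SimpleGraph.ediam_le_of_edist_le fun a b => by
    obtain ⟨w, hw⟩ := walk a b
    exact (SimpleGraph.edist_le w).trans (by exact_mod_cast hw)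
  have htop : Γ.ediam ≠ ⊤ := ne_top_of_le_ne_top (by decide) hle
  have h0 : Γ.diam ≠ 0 := SimpleGraph.diam_ne_zero_of_ediam_ne_top htop
  have h1' : Γ.diam ≠ 1 := fun e => by
    have hadj : Γ.Adj ⟨t, IsConj.refl t⟩ ⟨y, hyc⟩ := by
      rw [SimpleGraph.diam_eq_one.mp e]; exact hne'
    rcases hadj.2 with h | h
    · exact hev h
    · exact hne hy ht hyt hc h
  have h2' : Γ.diam ≤ 2 := by
    unfold SimpleGraph.diam
    exact ENat.toNat_le_of_le_coe hle
  omega

theorem graph_diam_two {t : G} (ht : orderOf t = 2)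
    (hbtw : ∀ s v : G, orderOf s = 2 → orderOf v = 2 → ¬ Odd (orderOf (s * v)) →
      ∃ u, orderOf u = 2 ∧ Odd (orderOf (s * u)) ∧ Odd (orderOf (u * v)))
    (hcomm : ∃ y, orderOf y = 2 ∧ y ≠ t ∧ y * t = t * y) :
    (SimpleGraph.fromRel fun x y : {x : G // IsConj t x} => Odd (orderOf (x.1 * y.1))).Connected ∧
      (SimpleGraph.fromRel fun x y : {x : G // IsConj t x} =>
        Odd (orderOf (x.1 * y.1))).diam = 2 := by
  have sq : ∀ {x : G}, orderOf x = 2 → x * x = 1 := fun {x} hx => by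
    rw [← pow_two, ← hx, pow_orderOf_eq_one]
  have ord : ∀ x : G, IsConj t x → orderOf x = 2 := fun x h => by
    obtain ⟨c, hc⟩ := isConj_iff.mp h
    rw [← hc, ← MulAut.conj_apply, ← ht]
    exact orderOf_injective (MulAut.conj c).toMonoidHom (MulAut.conj c).injective t
  obtain ⟨y, hy, hyt, hc⟩ := hcomm
  refine graph_diam_two' ht (fun s v hs hv => hbtw s v (ord s hs) (ord v hv)) ⟨y, ?_, hyt, hc⟩
  by_cases hodd : Odd (orderOf (t * y))
  · exact isConj_of_odd (sq ht) (sq hy) hodd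
  · obtain ⟨u, hu, h1, h2⟩ := hbtw t y ht hy hodd
    exact (isConj_of_odd (sq ht) (sq hu) h1).trans (isConj_of_odd (sq hu) (sq hy) h2)

end CfsgLib.H29.OddGraph
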