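import Cfsg.Agent.H29.OddGraph.Period

set_option autoImplicit false

/-!
Modifying an involution so that its products with two given ones have odd order.
-/

namespace CfsgLib.H29.OddGraph

open Equiv

variable {α : Type*} [Fintype α] [DecidableEq α]

/-- The number of fixed points. -/
def fix (g : Perm α) : Finset α := Finset.univ.filter fun x => g x = x

/-- The state of the construction. -/
structure Inv (s t u : Perm α) : Prop where
  ss : s * s = 1
  tt : t * t = 1
  uu : u * u = 1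
  odd : Odd (orderOf (s * u))
  fix_eq : (fix u).card = (fix t).card
  bad : ∀ x, ¬ Good (t * u) x → u x = s x

variable {s t u : Perm α}

theorem invol_apply {g : Perm α} (h : g * g = 1) (x : α) : g (g x) = x := by
  rw [← Perm.mul_apply, h]; rfl

theorem card_fix_conj (h u : Perm α) : (fix (h * u * h⁻¹)).card = (fix u).card := by
  refine (Finset.card_nbij (fun x => h x) (fun x hx => ?_) (h.injective.injOn) (fun y hy => ?_)).symm
  · simp only [fix, Finset.mem_coe, Finset.mem_filter, Finset.mem_univ, true_and] at hx ⊢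
    simp [hx]
  · simp only [fix, Finset.mem_coe, Finset.mem_filter, Finset.mem_univ, true_and] at hy
    refine ⟨h⁻¹ y, ?_, by simp⟩
    simp only [fix, Finset.mem_coe, Finset.mem_filter, Finset.mem_univ, true_and]
    have := congrArg (fun z => h⁻¹ z) hy
    simpa using this

/-- Replacing `u` by a conjugate differing from it on a set of free points. -/
theorem Inv.step (H : Inv s t u) (h : Perm α) (D : Finset α)
    (hout : ∀ x ∉ D, (h * u * h⁻¹) x = u x) (hD : ∀ d ∈ D, u d = s d)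
    (hs : ∀ d ∈ D, Good (s * (h * u * h⁻¹)) d) (ht : ∀ d ∈ D, Good (t * (h * u * h⁻¹)) d) :
    Inv s t (h * u * h⁻¹) ∧
      ∀ x, ¬ Good (t * (h * u * h⁻¹)) x → x ∉ D ∧ ¬ Good (t * u) x := by
  set v := h * u * h⁻¹ with hv
  have hπ : ∀ x ∉ D, (u * v) x = x := fun x hx => by
    rw [Perm.mul_apply, hout x hx, invol_apply H.uu]
  have e1 : s * v = s * u * (u * v) := by
    calc s * v = s * (u * u) * v := by rw [H.uu, mul_one]
      _ = s * u * (u * v) := by group
  have e2 : t * v = t * u * (u * v) := by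
    calc t * v = t * (u * u) * v := by rw [H.uu, mul_one]
      _ = t * u * (u * v) := by group
  have hold : ∀ x, ¬ Good (t * v) x → x ∉ D ∧ ¬ Good (t * u) x := fun x hx =>
    ⟨fun hd => hx (ht x hd), fun hg => hx (e2 ▸ good_splice D hπ (fun d hd => e2 ▸ ht d hd) hg)⟩
  refine ⟨⟨H.ss, H.tt, ?_, odd_orderOf fun x => ?_, (card_fix_conj h u).trans H.fix_eq, ?_⟩, hold⟩
  · calc v * v = h * (u * u) * h⁻¹ := by rw [hv]; group
      _ = 1 := by rw [H.uu]; group
  · rw [e1]
    exact good_splice D hπ (fun d hd => e1 ▸ hs d hd) (good_of_odd H.odd x)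
  · intro x hx
    obtain ⟨h1, h2⟩ := hold x hx
    rw [hout x h1]
    exact H.bad x h2

theorem rho_fix {x : α} (tt : t * t = 1) (uu : u * u = 1) (i : ℕ) :
    ((t * u) ^ i) (t (((t * u) ^ i) x)) = t x := by
  induction i with
  | zero => rfl
  | succ i ih =>
    rw [pow_succ, Perm.mul_apply]
    have e : ∀ y, (t * u) (t ((t * u) y)) = t y := fun y => by
      simp only [Perm.mul_apply, invol_apply tt, invol_apply uu]
    have hcomm : ((t * u) ^ i) ((t * u) x) = (t * u) (((t * u) ^ i) x) := by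
      rw [← Perm.mul_apply, ← pow_succ, pow_succ', Perm.mul_apply]
    rw [Perm.mul_apply (((t * u) ^ i)) (t * u) x, hcomm, e, ih]

theorem rho_u (tt : t * t = 1) (x : α) : t ((t * u) x) = u x := by
  rw [Perm.mul_apply, invol_apply tt]

theorem per_t (tt : t * t = 1) (uu : u * u = 1) (x : α) : per (t * u) (t x) = per (t * u) x := by
  refine per_eq_of_iff fun i => ⟨fun e => ?_, fun e => ?_⟩
  · have := rho_fix (x := x) tt uu i
    rw [← e] at this
    exact t.injective (((t * u) ^ i).injective this)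
  · have := rho_fix (x := x) tt uu i
    rwa [e] at this

theorem per_u (tt : t * t = 1) (uu : u * u = 1) (x : α) : per (t * u) (u x) = per (t * u) x := by
  rw [← rho_u (u := u) tt x, per_t tt uu]
  have := per_pow (t * u) x 1
  rwa [pow_one] at this

theorem good_congr {ρ : Perm α} {x y : α} (h : per ρ x = per ρ y) : Good ρ x ↔ Good ρ y := by
  rw [good_iff, good_iff, h]

theorem good_move {ρ : Perm α} {x : α} (h : Good ρ x) (i : ℕ) : Good ρ ((ρ ^ i) x) :=
  (good_congr (per_pow ρ x i)).2 h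

/-- Fixed points of the two involutions match on points of odd period. -/
theorem Inv.card_good_fix (H : Inv s t u) :
    ((fix u).filter fun x => Odd (per (t * u) x)).card =
      ((fix t).filter fun x => Odd (per (t * u) x)).card := by
  set ρ := t * u with hρ
  refine Finset.card_nbij' (fun x => (ρ ^ ((per ρ x + 1) / 2)) x)
    (fun y => (ρ ^ ((per ρ y - 1) / 2)) y) ?_ ?_ ?_ ?_
  · intro x hx
    simp only [fix, Finset.mem_coe, Finset.mem_filter, Finset.mem_univ, true_and] at hx ⊢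
    obtain ⟨hux, k, hk⟩ := hx
    refine ⟨((ρ ^ ((per ρ x + 1) / 2))).injective ?_, by rw [per_pow]; exact ⟨k, hk⟩⟩
    rw [rho_fix H.tt H.uu, ← Perm.mul_apply, ← pow_add,
      show (per ρ x + 1) / 2 + (per ρ x + 1) / 2 = 1 + per ρ x by omega, pow_add, Perm.mul_apply,
      pow_per, pow_one, hρ, Perm.mul_apply, hux]
  · intro y hy
    simp only [fix, Finset.mem_coe, Finset.mem_filter, Finset.mem_univ, true_and] at hy ⊢
    obtain ⟨hty, k, hk⟩ := hy
    refine ⟨?_, by rw [per_pow]; exact ⟨k, hk⟩⟩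
    set z := (ρ ^ ((per ρ y - 1) / 2)) y with hz
    rw [← rho_u (u := u) H.tt z]
    refine ((ρ ^ ((per ρ y - 1) / 2 + 1))).injective ?_
    rw [show (t * u) z = (ρ ^ ((per ρ y - 1) / 2 + 1)) y by
      rw [pow_succ']; rfl, rho_fix H.tt H.uu, hty, hz, ← Perm.mul_apply, ← pow_add,
      show (per ρ y - 1) / 2 + 1 + (per ρ y - 1) / 2 = per ρ y by omega, pow_per]
  · intro x hx
    simp only [fix, Finset.mem_coe, Finset.mem_filter, Finset.mem_univ, true_and] at hx
    obtain ⟨-, k, hk⟩ := hx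
    simp only [per_pow]
    rw [← Perm.mul_apply, ← pow_add, show (per ρ x - 1) / 2 + (per ρ x + 1) / 2 = per ρ x by omega,
      pow_per]
  · intro y hy
    simp only [fix, Finset.mem_coe, Finset.mem_filter, Finset.mem_univ, true_and] at hy
    obtain ⟨-, k, hk⟩ := hy
    simp only [per_pow]
    rw [← Perm.mul_apply, ← pow_add, show (per ρ y + 1) / 2 + (per ρ y - 1) / 2 = per ρ y by omega,
      pow_per]

theorem Inv.bad_fix_iff (H : Inv s t u) :
    (∃ x, ¬ Good (t * u) x ∧ t x = x) ↔ ∃ x, ¬ Good (t * u) x ∧ u x = x := by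
  have key : ((fix u).filter fun x => ¬ Odd (per (t * u) x)).card =
      ((fix t).filter fun x => ¬ Odd (per (t * u) x)).card := by
    have a := Finset.card_filter_add_card_filter_not (s := fix u) (fun x => Odd (per (t * u) x))
    have b := Finset.card_filter_add_card_filter_not (s := fix t) (fun x => Odd (per (t * u) x))
    have := H.card_good_fix
    have := H.fix_eq
    omega
  have conv : ∀ g : Perm α, (∃ x, ¬ Good (t * u) x ∧ g x = x) ↔
      0 < ((fix g).filter fun x => ¬ Odd (per (t * u) x)).card := fun g => by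
    rw [Finset.card_pos]
    simp only [Finset.Nonempty, fix, Finset.mem_filter, Finset.mem_univ, true_and, good_iff]
    exact ⟨fun ⟨x, a, b⟩ => ⟨x, b, a⟩, fun ⟨x, a, b⟩ => ⟨x, b, a⟩⟩
  rw [conv, conv, key]

/-- A transposition move. -/
theorem Inv.swap_move (H : Inv s t u) {a₁ a₂ w : α} (h12 : a₁ ≠ a₂) (h1w : a₁ ≠ w) (h2w : a₂ ≠ w)
    (hu1 : u a₁ = a₂) (huw : u w = w) (hs1 : s a₁ = a₂) (hsw : s w = w)
    (ht : ∀ v : Perm α, v a₁ = a₁ → v a₂ = w → v w = a₂ →
      (∀ x, x ≠ a₁ → x ≠ a₂ → x ≠ w → v x = u x) →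
      Good (t * v) a₁ ∧ Good (t * v) a₂ ∧ Good (t * v) w) :
    ∃ v, Inv s t v ∧ v a₁ = a₁ ∧ v a₂ = w ∧ v w = a₂ ∧
      (∀ x, x ≠ a₁ → x ≠ a₂ → x ≠ w → v x = u x) ∧
      ∀ x, ¬ Good (t * v) x → (x ≠ a₁ ∧ x ≠ a₂ ∧ x ≠ w) ∧ ¬ Good (t * u) x := by
  have hu2 : u a₂ = a₁ := by rw [← hu1, invol_apply H.uu]
  have hs2 : s a₂ = a₁ := by rw [← hs1, invol_apply H.ss]
  set v := swap a₁ w * u * (swap a₁ w)⁻¹ with hv
  have v1 : v a₁ = a₁ := by simp [hv, huw]
  have v2 : v a₂ = w := by simp [hv, swap_apply_of_ne_of_ne h12.symm h2w, hu2]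
  have vw : v w = a₂ := by simp [hv, hu1, swap_apply_of_ne_of_ne h12.symm h2w]
  have vo : ∀ x, x ≠ a₁ → x ≠ a₂ → x ≠ w → v x = u x := fun x x1 x2 x3 => by
    have y1 : u x ≠ a₁ := fun e => x2 (by rw [← invol_apply H.uu x, e, hu1])
    have y3 : u x ≠ w := fun e => x3 (by rw [← invol_apply H.uu x, e, huw])
    simp [hv, swap_apply_of_ne_of_ne x1 x3, swap_apply_of_ne_of_ne y1 y3]
  obtain ⟨g1, g2, g3⟩ := ht v v1 v2 vw vo
  obtain ⟨hI, hbad⟩ := H.step (swap a₁ w) {a₁, a₂, w}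
    (fun x hx => by
      simp only [Finset.mem_insert, Finset.mem_singleton, not_or] at hx
      exact vo x hx.1 hx.2.1 hx.2.2)
    (fun d hd => by
      simp only [Finset.mem_insert, Finset.mem_singleton] at hd
      rcases hd with rfl | rfl | rfl
      · rw [hu1, hs1]
      · rw [hu2, hs2]
      · rw [huw, hsw])
    (fun d hd => by
      refine ⟨3, by decide, ?_⟩
      simp only [Finset.mem_insert, Finset.mem_singleton] at hd
      rcases hd with rfl | rfl | rfl <;>
        simp only [pow_succ, pow_zero, one_mul, Perm.mul_apply, Perm.one_apply, ← hv, v1, v2, vw, hs1,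
          hs2, hsw])
    (fun d hd => by
      simp only [Finset.mem_insert, Finset.mem_singleton] at hd
      rcases hd with rfl | rfl | rfl <;> assumption)
  refine ⟨v, hI, v1, v2, vw, vo, fun x hx => ?_⟩
  have := hbad x hx
  simp only [Finset.mem_insert, Finset.mem_singleton, not_or] at this
  exact this

/-- A move recombining three edges. -/
theorem Inv.hex_move (H : Inv s t u) {a₁ b₁ a₂ b₂ a₃ b₃ : α}
    (nd : [a₁, b₁, a₂, b₂, a₃, b₃].Nodup) (hu1 : u a₁ = b₁) (hu2 : u a₂ = b₂) (hu3 : u a₃ = b₃)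
    (hs1 : s a₁ = b₁) (hs2 : s a₂ = b₂) (hs3 : s a₃ = b₃)
    (ht : ∀ v : Perm α, v b₁ = a₂ → v a₂ = b₁ → v b₂ = b₃ → v b₃ = b₂ → v a₃ = a₁ → v a₁ = a₃ →
      (∀ x, x ∉ [a₁, b₁, a₂, b₂, a₃, b₃] → v x = u x) →
      ∀ d ∈ [a₁, b₁, a₂, b₂, a₃, b₃], Good (t * v) d) :
    ∃ v, Inv s t v ∧ (∀ x, x ∉ [a₁, b₁, a₂, b₂, a₃, b₃] → v x = u x) ∧
      (v b₁ = a₂ ∧ v a₂ = b₁ ∧ v b₂ = b₃ ∧ v b₃ = b₂ ∧ v a₃ = a₁ ∧ v a₁ = a₃) ∧
      ∀ x, ¬ Good (t * v) x → x ∉ [a₁, b₁, a₂, b₂, a₃, b₃] ∧ ¬ Good (t * u) x := by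
  simp only [List.nodup_cons, List.mem_cons, List.not_mem_nil, or_false, not_or,
    List.nodup_nil, and_true, not_false_eq_true] at nd
  obtain ⟨⟨n1, n2, n3, n4, n5⟩, ⟨n6, n7, n8, n9⟩, ⟨n10, n11, n12⟩, ⟨n13, n14⟩, n15⟩ := nd
  have hu1' : u b₁ = a₁ := by rw [← hu1, invol_apply H.uu]
  have hu2' : u b₂ = a₂ := by rw [← hu2, invol_apply H.uu]
  have hu3' : u b₃ = a₃ := by rw [← hu3, invol_apply H.uu]
  have hs1' : s b₁ = a₁ := by rw [← hs1, invol_apply H.ss]
  have hs2' : s b₂ = a₂ := by rw [← hs2, invol_apply H.ss]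
  have hs3' : s b₃ = a₃ := by rw [← hs3, invol_apply H.ss]
  set h := swap a₁ b₃ * swap a₁ a₂ with hh
  have e1 : h a₁ = a₂ := by simp [hh, swap_apply_of_ne_of_ne (Ne.symm n2) n12]
  have e2 : h a₂ = b₃ := by simp [hh]
  have e3 : h b₃ = a₁ := by simp [hh, swap_apply_of_ne_of_ne (Ne.symm n5) (Ne.symm n12)]
  have eo : ∀ x, x ≠ a₁ → x ≠ a₂ → x ≠ b₃ → h x = x := fun x x1 x2 x3 => by
    simp [hh, swap_apply_of_ne_of_ne x1 x2, swap_apply_of_ne_of_ne x1 x3]
  set v := h * u * h⁻¹ with hv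
  have hvh : ∀ x, v (h x) = h (u x) := fun x => by simp [hv]
  have v1 : v b₁ = a₂ := by
    have := hvh b₁
    rwa [eo b₁ (Ne.symm n1) n6 n9, hu1', e1] at this
  have v2 : v a₂ = b₁ := by
    have := hvh a₁
    rwa [e1, hu1, eo b₁ (Ne.symm n1) n6 n9] at this
  have v3 : v b₂ = b₃ := by
    have := hvh b₂
    rwa [eo b₂ (Ne.symm n3) (Ne.symm n10) n14, hu2', e2] at this
  have v4 : v b₃ = b₂ := by
    have := hvh a₂
    rwa [e2, hu2, eo b₂ (Ne.symm n3) (Ne.symm n10) n14] at this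
  have v5 : v a₃ = a₁ := by
    have := hvh a₃
    rwa [eo a₃ (Ne.symm n4) (Ne.symm n11) n15, hu3, e3] at this
  have v6 : v a₁ = a₃ := by
    have := hvh b₃
    rwa [e3, hu3', eo a₃ (Ne.symm n4) (Ne.symm n11) n15] at this
  have vo : ∀ x, x ∉ [a₁, b₁, a₂, b₂, a₃, b₃] → v x = u x := by
    intro x hx
    simp only [List.mem_cons, List.not_mem_nil, or_false, not_or] at hx
    obtain ⟨x1, x2, x3, x4, x5, x6⟩ := hx
    have ux : ∀ a b, u a = b → x ≠ b → u x ≠ a := fun a b hab hxb e =>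
      hxb (by rw [← invol_apply H.uu x, e, hab])
    have := hvh x
    rwa [eo x x1 x3 x6, eo (u x) (ux _ _ hu1 x2) (ux _ _ hu2 x4) (ux _ _ hu3' x5)] at this
  have hmem : ∀ x, x ∈ [a₁, b₁, a₂, b₂, a₃, b₃].toFinset ↔ x ∈ [a₁, b₁, a₂, b₂, a₃, b₃] :=
    fun x => List.mem_toFinset
  obtain ⟨hI, hbad⟩ := H.step h [a₁, b₁, a₂, b₂, a₃, b₃].toFinset
    (fun x hx => vo x (fun h' => hx ((hmem x).2 h')))
    (fun d hd => by
      rw [hmem] at hd
      simp only [List.mem_cons, List.not_mem_nil, or_false] at hd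
      rcases hd with rfl | rfl | rfl | rfl | rfl | rfl <;>
        simp only [hu1, hs1, hu2, hs2, hu3, hs3, hu1', hs1', hu2', hs2', hu3', hs3'])
    (fun d hd => by
      rw [hmem] at hd
      refine ⟨3, by decide, ?_⟩
      simp only [List.mem_cons, List.not_mem_nil, or_false] at hd
      rcases hd with rfl | rfl | rfl | rfl | rfl | rfl <;>
        simp only [pow_succ, pow_zero, one_mul, Perm.mul_apply, Perm.one_apply, ← hv, v1, v2, v3, v4,
          v5, v6, hs1, hs2, hs3, hs1', hs2', hs3'])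
    (fun d hd => ht v v1 v2 v3 v4 v5 v6 vo d ((hmem d).1 hd))
  exact ⟨v, hI, vo, ⟨v1, v2, v3, v4, v5, v6⟩, fun x hx =>
    ⟨fun h' => (hbad x hx).1 ((hmem x).2 h'), (hbad x hx).2⟩⟩

theorem seg' {v : Perm α} (uu : u * u = 1) {y : α} (k : ℕ)
    (h : ∀ i, i < k → v (((t * u) ^ i) y) = u (((t * u) ^ i) y)) :
    ((t * v) ^ k) y = ((t * u) ^ k) y := by
  have e : t * v = t * u * (u * v) := by
    calc t * v = t * (u * u) * v := by rw [uu, mul_one]
      _ = t * u * (u * v) := by group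
  rw [e]
  exact seg k fun i hi => by rw [Perm.mul_apply, h i hi, invol_apply uu]

theorem good_cycle {ρ : Perm α} {x : α} {n : ℕ} (hn : n % 2 = 1) (h : (ρ ^ n) x = x) :
    ∀ i, Good ρ ((ρ ^ i) x) := good_move ⟨n, Nat.odd_iff.2 hn, h⟩

end CfsgLib.H29.OddGraph
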