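import Cfsg.Agent.H29.OddGraph.Matching

set_option autoImplicit false

/-!
The moves removing points of even period, and the existence of a common odd neighbour.
-/

namespace CfsgLib.H29.OddGraph

open Equiv

variable {α : Type*} [Fintype α] [DecidableEq α] {s t u : Perm α}

/-- The result of a move: fewer bad points and a free good point. -/
def Progress (s t u : Perm α) : Prop :=
  ∃ v, Inv s t v ∧ (∀ x, ¬ Good (t * v) x → ¬ Good (t * u) x) ∧
    (∃ x, ¬ Good (t * u) x ∧ Good (t * v) x) ∧ ∃ z, Good (t * v) z ∧ v z = s z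

theorem two_le_per {ρ : Perm α} {x : α} (h : ¬ Good ρ x) : 2 ≤ per ρ x ∧ per ρ x % 2 = 0 := by
  rw [good_iff, Nat.not_odd_iff] at h
  have := per_pos ρ x
  omega

theorem pow_pow_apply (ρ : Perm α) (i j : ℕ) (x : α) : (ρ ^ i) ((ρ ^ j) x) = (ρ ^ (i + j)) x := by
  rw [pow_add, Perm.mul_apply]

theorem orbit_ne {ρ : Perm α} {x y : α} (h : ∀ i : ℕ, (ρ ^ i) x ≠ y) (i j : ℕ) :
    (ρ ^ i) x ≠ (ρ ^ j) y := by
  intro e
  have := per_pos ρ y
  obtain ⟨k, hk⟩ : ∃ k, j + k = per ρ y * (j + 1) :=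
    ⟨per ρ y * (j + 1) - j, Nat.add_sub_cancel' (by nlinarith)⟩
  refine h (k + i) ?_
  rw [pow_add, Perm.mul_apply, e, ← Perm.mul_apply, ← pow_add, add_comm, hk,
    (pow_apply_eq_self_iff ρ y _).2 (dvd_mul_right _ _)]

/-- Two paths with an even number of vertices. -/
theorem Inv.path_move (H : Inv s t u) {a₁ w : α} (ha : ¬ Good (t * u) a₁) (hta : t a₁ = a₁)
    (hw : ¬ Good (t * u) w) (huw : u w = w) : Progress s t u := by
  set ρ := t * u with hρ
  obtain ⟨hL1, hL1'⟩ := two_le_per ha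
  obtain ⟨hL2, hL2'⟩ := two_le_per hw
  set L1 := per ρ a₁ with hL1d
  set L2 := per ρ w with hL2d
  have hnot : ∀ i : ℕ, (ρ ^ i) a₁ ≠ w := by
    intro i e
    have h1 := rho_fix (x := a₁) H.tt H.uu i
    rw [← hρ, e, hta] at h1
    have : t w = (ρ ^ 1) w := by rw [pow_one, hρ, Perm.mul_apply, huw]
    rw [this, ← e, pow_pow_apply, pow_pow_apply,
      pow_apply_eq_self_iff] at h1
    obtain ⟨k, hk⟩ := h1
    rw [← hL1d] at hk
    have h2 : L1 * k % 2 = 0 := by rw [Nat.mul_mod, hL1', zero_mul, Nat.zero_mod]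
    omega
  set a₂ := (ρ ^ (L1 - 1)) a₁ with ha2
  have hu1 : u a₁ = a₂ := by
    apply ρ.injective
    rw [ha2, ← Perm.mul_apply ρ (ρ ^ (L1 - 1)), ← pow_succ', show L1 - 1 + 1 = L1 by omega, hL1d,
      pow_per, hρ, Perm.mul_apply, invol_apply H.uu, hta]
  have hbad2 : ¬ Good ρ a₂ := fun h => ha ((good_congr (per_pow ρ a₁ _)).1 h)
  have h12 : a₁ ≠ a₂ := fun e => pow_ne_self (show 0 < L1 - 1 by omega) (show L1 - 1 < L1 by omega) e.symm
  have h1w : a₁ ≠ w := fun e => hnot 0 e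
  have h2w : a₂ ≠ w := hnot _
  have havoid : ∀ v : Perm α, (∀ x, x ≠ a₁ → x ≠ a₂ → x ≠ w → v x = u x) →
      (∀ i, 0 < i → i < L2 → v ((ρ ^ i) w) = u ((ρ ^ i) w)) ∧
      (∀ i, 0 < i → i < L1 - 1 → v ((ρ ^ i) a₁) = u ((ρ ^ i) a₁)) := by
    intro v vo
    refine ⟨fun i h1 h2 => vo _ ?_ ?_ ?_, fun i h1 h2 => vo _ ?_ ?_ ?_⟩
    · exact fun e => orbit_ne hnot 0 i e.symm
    · exact fun e => orbit_ne hnot _ i e.symm
    · exact pow_ne_self h1 h2
    · exact pow_ne_self h1 (show i < L1 by omega)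
    · exact fun e => absurd (pow_inj (show i < L1 by omega) (show L1 - 1 < L1 by omega) e) (by omega)
    · exact hnot i
  have cyc : ∀ v : Perm α, v a₂ = w → v w = a₂ → (∀ x, x ≠ a₁ → x ≠ a₂ → x ≠ w → v x = u x) →
      ((t * v) ^ 1) a₂ = (ρ ^ 1) w ∧ ((t * v) ^ L2) a₂ = w ∧
        ((t * v) ^ (L2 + L1 - 1)) a₂ = a₂ := by
    intro v v2 vw vo
    obtain ⟨hw', ha'⟩ := havoid v vo
    have c1 : ((t * v) ^ 1) a₂ = (ρ ^ 1) w := by
      rw [pow_one, pow_one, Perm.mul_apply, v2, hρ, Perm.mul_apply, huw]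
    have c2 : ((t * v) ^ (L2 - 1)) ((ρ ^ 1) w) = w := by
      rw [seg' H.uu _ fun i hi => ?_]
      · rw [← hρ, hL2d]; exact pow_back ρ w (by omega)
      · rw [← hρ, pow_pow_apply]; exact hw' _ (by omega) (by omega)
    have c3 : ((t * v) ^ 1) w = (ρ ^ 1) a₁ := by
      rw [pow_one, pow_one, Perm.mul_apply, vw, hρ, Perm.mul_apply, hu1]
    have c4 : ((t * v) ^ (L1 - 2)) ((ρ ^ 1) a₁) = a₂ := by
      rw [seg' H.uu _ fun i hi => ?_]
      · rw [← hρ, pow_pow_apply, show L1 - 2 + 1 = L1 - 1 by omega]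
      · rw [← hρ, pow_pow_apply]; exact ha' _ (by omega) (by omega)
    have c12 := pow_chain c1 c2
    rw [show 1 + (L2 - 1) = L2 by omega] at c12
    have := pow_chain c12 (pow_chain c3 c4)
    rw [show L2 + (1 + (L1 - 2)) = L2 + L1 - 1 by omega] at this
    exact ⟨c1, c12, this⟩
  obtain ⟨v, hI, v1, v2, vw, vo, hbad⟩ := H.swap_move h12 h1w h2w hu1 huw
    ((H.bad a₁ ha).symm.trans hu1) ((H.bad w hw).symm.trans huw) (fun v v1 v2 vw vo => by
      obtain ⟨-, c2, c3⟩ := cyc v v2 vw vo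
      refine ⟨⟨1, odd_one, by rw [pow_one, Perm.mul_apply, v1, hta]⟩,
        ⟨_, Nat.odd_iff.2 (by omega), c3⟩, ?_⟩
      rw [← c2]
      exact good_cycle (by omega) c3 _)
  refine ⟨v, hI, fun x hx => (hbad x hx).2, ⟨a₁, ha, ⟨1, odd_one, by rw [pow_one, Perm.mul_apply, v1, hta]⟩⟩,
    (ρ ^ 1) w, ?_, ?_⟩
  · obtain ⟨c1, -, c3⟩ := cyc v v2 vw vo
    rw [← c1]
    exact good_cycle (by omega) c3 _
  · rw [(havoid v vo).1 1 one_pos (by omega)]
    exact H.bad _ fun h => hw ((good_congr (per_pow ρ w 1)).1 h)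

theorem no_fix_orbit (H : Inv s t u) (hno : ∀ z, ¬ Good (t * u) z → t z ≠ z ∧ u z ≠ z) {x : α}
    (hx : ¬ Good (t * u) x) (i : ℕ) : ((t * u) ^ i) x ≠ t x := by
  intro e
  rcases Nat.even_or_odd' i with ⟨j, rfl | rfl⟩
  · refine (hno (((t * u) ^ j) x) fun h => hx ((good_congr (per_pow _ x j)).1 h)).1 ?_
    apply ((t * u) ^ j).injective
    rw [rho_fix H.tt H.uu, ← e, ← Perm.mul_apply, ← pow_add, two_mul]
  · refine (hno (((t * u) ^ j) x) fun h => hx ((good_congr (per_pow _ x j)).1 h)).2 ?_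
    rw [← rho_u (u := u) H.tt]
    apply ((t * u) ^ (j + 1)).injective
    rw [show (t * u) (((t * u) ^ j) x) = ((t * u) ^ (j + 1)) x by rw [pow_succ']; rfl,
      rho_fix H.tt H.uu, ← e, ← Perm.mul_apply, ← pow_add,
      show j + 1 + j = 2 * j + 1 by omega]

/-- A cycle of length at least eight. -/
theorem Inv.cycle_move (H : Inv s t u) (hno : ∀ z, ¬ Good (t * u) z → t z ≠ z ∧ u z ≠ z) {x : α}
    (hx : ¬ Good (t * u) x) (h2 : per (t * u) x ≠ 2) : Progress s t u := by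
  set ρ := t * u with hρ
  obtain ⟨hL, hL'⟩ := two_le_per hx
  set L := per ρ x with hLd
  have hL4 : 4 ≤ L := by omega
  set y := t x with hy
  have hLy : per ρ y = L := per_t H.tt H.uu x
  have hne := no_fix_orbit H hno hx
  have hR : ∀ z : α, ρ z = t (u z) := fun z => rfl
  have hlast : ∀ z, per ρ z = L → ρ ((ρ ^ (L - 1)) z) = z := fun z hz => by
    rw [← Perm.mul_apply ρ (ρ ^ (L - 1)), ← pow_succ', show L - 1 + 1 = per ρ z by omega, pow_per]
  set b₂ := (ρ ^ (L - 1)) x with hb2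
  set b₃ := (ρ ^ (L - 2)) x with hb3
  set a₁ := (ρ ^ (L - 1)) y with ha1
  set a₃ := (ρ ^ 1) y with ha3
  have hu1 : u a₁ = x := by
    apply t.injective
    rw [← hR, hlast y hLy, hy]
  have hu2 : u y = b₂ := by
    apply ρ.injective
    rw [hlast x rfl, hR, invol_apply H.uu, hy, invol_apply H.tt]
  have tb2 : t b₂ = a₃ := by
    rw [ha3, pow_one, hR, hu2]
  have hu3 : u a₃ = b₃ := by
    have : ρ b₃ = b₂ := by
      rw [hb3, hb2, ← Perm.mul_apply ρ, ← pow_succ', show L - 2 + 1 = L - 1 by omega]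
    rw [← tb2, ← this, hR, invol_apply H.tt, invol_apply H.uu]
  have hbadx : ∀ i, ¬ Good ρ ((ρ ^ i) x) := fun i h => hx ((good_congr (per_pow ρ x i)).1 h)
  have hbady : ∀ i, ¬ Good ρ ((ρ ^ i) y) := fun i h =>
    hx ((good_congr ((per_pow ρ y i).trans hLy)).1 h)
  have ne_xy : ∀ i j, (ρ ^ i) x ≠ (ρ ^ j) y := orbit_ne hne
  have ne_x : ∀ i j, i < L → j < L → i ≠ j → (ρ ^ i) x ≠ (ρ ^ j) x :=
    fun i j hi hj hij e => hij (pow_inj hi hj e)
  have ne_y : ∀ i j, i < L → j < L → i ≠ j → (ρ ^ i) y ≠ (ρ ^ j) y :=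
    fun i j hi hj hij e => hij (pow_inj (by omega) (by omega) e)
  have nd : [a₁, x, y, b₂, a₃, b₃].Nodup := by
    simp only [List.nodup_cons, List.mem_cons, List.not_mem_nil, or_false, not_or, List.nodup_nil,
      and_true, not_false_eq_true]
    exact ⟨⟨fun e => ne_xy 0 _ e.symm, fun e => ne_y _ 0 (by omega) (by omega) (by omega) e,
      fun e => ne_xy _ _ e.symm, fun e => ne_y _ _ (by omega) (by omega) (by omega) e,
      fun e => ne_xy _ _ e.symm⟩,
      ⟨fun e => ne_xy 0 0 e, fun e => ne_x 0 _ (by omega) (by omega) (by omega) e,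
        fun e => ne_xy 0 _ e, fun e => ne_x 0 _ (by omega) (by omega) (by omega) e⟩,
      ⟨fun e => ne_xy _ 0 e.symm, fun e => ne_y 0 _ (by omega) (by omega) (by omega) e,
        fun e => ne_xy _ 0 e.symm⟩,
      ⟨fun e => ne_xy _ _ e, fun e => ne_x _ _ (by omega) (by omega) (by omega) e⟩,
      fun e => ne_xy _ _ e.symm⟩
  have avoid : ∀ v : Perm α, (∀ z, z ∉ [a₁, x, y, b₂, a₃, b₃] → v z = u z) →
      (∀ i, 0 < i → i < L - 2 → v ((ρ ^ i) x) = u ((ρ ^ i) x)) ∧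
      ∀ i, 1 < i → i < L - 1 → v ((ρ ^ i) y) = u ((ρ ^ i) y) := by
    intro v vo
    constructor <;> intro i h1 h2 <;> apply vo <;>
      simp only [List.mem_cons, List.not_mem_nil, or_false, not_or]
    · exact ⟨ne_xy _ _, fun e => ne_x i 0 (by omega) (by omega) (by omega) e, ne_xy i 0,
        ne_x _ _ (by omega) (by omega) (by omega), ne_xy _ _, ne_x _ _ (by omega) (by omega) (by omega)⟩
    · exact ⟨ne_y _ _ (by omega) (by omega) (by omega), fun e => ne_xy 0 i e.symm,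
        fun e => ne_y i 0 (by omega) (by omega) (by omega) e, fun e => ne_xy _ _ e.symm,
        ne_y _ _ (by omega) (by omega) (by omega), fun e => ne_xy _ _ e.symm⟩
  have cyc : ∀ v : Perm α, v x = y → v y = x → v b₂ = b₃ → v b₃ = b₂ → v a₃ = a₁ → v a₁ = a₃ →
      (∀ z, z ∉ [a₁, x, y, b₂, a₃, b₃] → v z = u z) →
      (((t * v) ^ (1 + (L - 3))) b₂ = a₁ ∧ ((t * v) ^ (L - 1)) b₂ = b₂) ∧
      (((t * v) ^ 1) b₃ = a₃ ∧ ((t * v) ^ 2) b₃ = (ρ ^ 1) x ∧ ((t * v) ^ (L - 1)) b₃ = b₃) := by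
    intro v v1 v2 v3 v4 v5 v6 vo
    obtain ⟨hxv, hyv⟩ := avoid v vo
    have c1 : ((t * v) ^ 1) b₂ = (ρ ^ 2) y := by
      rw [pow_one, Perm.mul_apply, v3, ← hu3, ← hR, ha3, pow_succ' ρ 1]; rfl
    have c2 : ((t * v) ^ (L - 3)) ((ρ ^ 2) y) = a₁ := by
      rw [seg' H.uu _ fun i hi => ?_]
      · rw [← hρ, pow_pow_apply, show L - 3 + 2 = L - 1 by omega]
      · rw [← hρ, pow_pow_apply]; exact hyv _ (by omega) (by omega)
    have c3 : ((t * v) ^ 1) a₁ = b₂ := by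
      rw [pow_one, Perm.mul_apply, v6, ← tb2, invol_apply H.tt]
    have d1 : ((t * v) ^ 1) b₃ = a₃ := by rw [pow_one, Perm.mul_apply, v4, tb2]
    have d2 : ((t * v) ^ 1) a₃ = (ρ ^ 1) x := by
      rw [pow_one, Perm.mul_apply, v5, pow_one, hR, ← hu1, invol_apply H.uu]
    have d3 : ((t * v) ^ (L - 3)) ((ρ ^ 1) x) = b₃ := by
      rw [seg' H.uu _ fun i hi => ?_]
      · rw [← hρ, pow_pow_apply, show L - 3 + 1 = L - 2 by omega]
      · rw [← hρ, pow_pow_apply]; exact hxv _ (by omega) (by omega)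
    have c := pow_chain (pow_chain c1 c2) c3
    rw [show 1 + (L - 3) + 1 = L - 1 by omega] at c
    have d := pow_chain (pow_chain d1 d2) d3
    rw [show 1 + 1 + (L - 3) = L - 1 by omega] at d
    exact ⟨⟨pow_chain c1 c2, c⟩, d1, pow_chain d1 d2, d⟩
  have hs : ∀ z w, ¬ Good ρ z → u z = w → s z = w := fun z w hz e => by rw [← H.bad z hz, e]
  obtain ⟨v, hI, vo, ⟨v1, v2, v3, v4, v5, v6⟩, hbad⟩ := H.hex_move nd hu1 hu2 hu3
    (hs _ _ (hbady _) hu1) (hs _ _ (hbady 0) hu2) (hs _ _ (hbady _) hu3)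
    (fun v v1 v2 v3 v4 v5 v6 vo d hd => by
      obtain ⟨⟨c1, c2⟩, d1, -, d3⟩ := cyc v v1 v2 v3 v4 v5 v6 vo
      simp only [List.mem_cons, List.not_mem_nil, or_false] at hd
      rcases hd with rfl | rfl | rfl | rfl | rfl | rfl
      · rw [← c1]; exact good_cycle (by omega) c2 _
      · exact ⟨1, odd_one, by rw [pow_one, Perm.mul_apply, v1, hy, invol_apply H.tt]⟩
      · exact ⟨1, odd_one, by rw [pow_one, Perm.mul_apply, v2]⟩
      · exact ⟨_, Nat.odd_iff.2 (by omega), c2⟩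
      · rw [← d1]; exact good_cycle (by omega) d3 _
      · exact ⟨_, Nat.odd_iff.2 (by omega), d3⟩)
  obtain ⟨-, -, d2, d3⟩ := cyc v v1 v2 v3 v4 v5 v6 vo
  refine ⟨v, hI, fun z hz => (hbad z hz).2,
    ⟨x, hx, ⟨1, odd_one, by rw [pow_one, Perm.mul_apply, v1, hy, invol_apply H.tt]⟩⟩,
    (ρ ^ 1) x, ?_, ?_⟩
  · rw [← d2]; exact good_cycle (by omega) d3 _
  · rw [(avoid v vo).1 1 one_pos (by omega)]
    exact H.bad _ (hbadx 1)

/-- The four points of a short component. -/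
theorem four (H : Inv s t u) (hno : ∀ z, ¬ Good (t * u) z → t z ≠ z ∧ u z ≠ z) {x : α}
    (hx : ¬ Good (t * u) x) (h2 : per (t * u) x = 2) :
    t (u (t x)) = u x ∧ u (t x) = t (u x) ∧ [x, u x, t x, t (u x)].Nodup ∧
      ¬ Good (t * u) (u x) ∧ ¬ Good (t * u) (t x) ∧ ¬ Good (t * u) (t (u x)) := by
  have h22 : t (u (t (u x))) = x := by
    have := pow_per (t * u) x
    rwa [h2, pow_two, Perm.mul_apply, Perm.mul_apply, Perm.mul_apply] at this
  have e1 : u (t (u x)) = t x := by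
    apply t.injective; rw [invol_apply H.tt, h22]
  have e2 : u (t x) = t (u x) := by rw [← e1, invol_apply H.uu]
  refine ⟨by rw [e2, invol_apply H.tt], e2, ?_, fun h => hx ((good_congr (per_u H.tt H.uu x)).1 h),
    fun h => hx ((good_congr (per_t H.tt H.uu x)).1 h), fun h => hx ((good_congr ?_).1 h)⟩
  · have n1 := hno x hx
    have hρx : t (u x) ≠ x := fun e => by
      have := (pow_apply_eq_self_iff (t * u) x 1).1 (by rw [pow_one]; exact e)
      rw [h2] at this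
      omega
    simp only [List.nodup_cons, List.mem_cons, List.not_mem_nil, or_false, not_or, List.nodup_nil,
      and_true, not_false_eq_true]
    refine ⟨⟨n1.2.symm, n1.1.symm, hρx.symm⟩, ⟨fun e => hρx ?_, ?_⟩, fun e => n1.2.symm (t.injective e)⟩
    · rw [e, invol_apply H.tt]
    · exact fun e => (hno (u x) fun h => hx ((good_congr (per_u H.tt H.uu x)).1 h)).1 e.symm
  · have := per_pow (t * u) x 1
    rwa [pow_one] at this

/-- Two short components. -/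
theorem Inv.pair_move (H : Inv s t u) (hno : ∀ z, ¬ Good (t * u) z → t z ≠ z ∧ u z ≠ z) {x x' : α}
    (hx : ¬ Good (t * u) x) (h2 : per (t * u) x = 2) (hx' : ¬ Good (t * u) x')
    (h2' : per (t * u) x' = 2) (hout : x' ∉ [x, u x, t x, t (u x)]) : Progress s t u := by
  obtain ⟨k1, k2, knd, b1, b2, b3⟩ := four H hno hx h2
  obtain ⟨l1, l2, lnd, c1, c2, c3⟩ := four H hno hx' h2'
  have tc : ∀ z, z ∈ [x, u x, t x, t (u x)] → u z ∈ [x, u x, t x, t (u x)] ∧ t z ∈ [x, u x, t x, t (u x)] := by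
    intro z hz
    simp only [List.mem_cons, List.not_mem_nil, or_false] at hz ⊢
    rcases hz with rfl | rfl | rfl | rfl
    · exact ⟨by tauto, by tauto⟩
    · exact ⟨by rw [invol_apply H.uu]; tauto, by tauto⟩
    · exact ⟨by rw [k2]; tauto, by rw [invol_apply H.tt]; tauto⟩
    · exact ⟨by rw [← k2, invol_apply H.uu]; tauto, by rw [invol_apply H.tt]; tauto⟩
  have o1 : u x' ∉ [x, u x, t x, t (u x)] := fun h => hout (by
    have := (tc _ h).1; rwa [invol_apply H.uu] at this)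
  have o2 : t x' ∉ [x, u x, t x, t (u x)] := fun h => hout (by
    have := (tc _ h).2; rwa [invol_apply H.tt] at this)
  have hu2 : u (t x) = t (u x) := k2
  have hu3 : u (u x') = x' := invol_apply H.uu _
  simp only [List.nodup_cons, List.mem_cons, List.not_mem_nil, or_false, not_or, List.nodup_nil,
    and_true, not_false_eq_true] at knd lnd hout o1 o2
  obtain ⟨⟨n1, n2, n3⟩, ⟨n4, n5⟩, n6⟩ := knd
  obtain ⟨⟨m1, m2, m3⟩, ⟨m4, m5⟩, m6⟩ := lnd
  have nd : [u x, x, t x, t (u x), u x', x'].Nodup := by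
    simp only [List.nodup_cons, List.mem_cons, List.not_mem_nil, or_false, not_or, List.nodup_nil,
      and_true, not_false_eq_true]
    exact ⟨⟨Ne.symm n1, n4, n5, Ne.symm o1.2.1, Ne.symm hout.2.1⟩,
      ⟨n2, n3, Ne.symm o1.1, Ne.symm hout.1⟩, ⟨n6, Ne.symm o1.2.2.1, Ne.symm hout.2.2.1⟩,
      ⟨Ne.symm o1.2.2.2, Ne.symm hout.2.2.2⟩, Ne.symm m1⟩
  have hmem : t x' ∉ [u x, x, t x, t (u x), u x', x'] ∧ t (u x') ∉ [u x, x, t x, t (u x), u x', x'] := by
    have o3 : t (u x') ≠ u x ∧ t (u x') ≠ x ∧ t (u x') ≠ t x ∧ t (u x') ≠ t (u x) :=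
      ⟨fun e => o1.2.2.2 (by rw [← e, invol_apply H.tt]),
        fun e => o1.2.2.1 (by rw [← e, invol_apply H.tt]),
        fun e => o1.1 (t.injective e), fun e => o1.2.1 (t.injective e)⟩
    simp only [List.mem_cons, List.not_mem_nil, or_false, not_or]
    exact ⟨⟨o2.2.1, o2.1, o2.2.2.1, o2.2.2.2, Ne.symm m4, Ne.symm m2⟩,
      ⟨o3.1, o3.2.1, o3.2.2.1, o3.2.2.2, Ne.symm m5, Ne.symm m3⟩⟩
  have cyc : ∀ v : Perm α, v (t (u x)) = x' → v x' = t (u x) → v (u x') = u x → v (u x) = u x' →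
      (∀ z, z ∉ [u x, x, t x, t (u x), u x', x'] → v z = u z) →
      (((t * v) ^ 1) (t (u x)) = t x' ∧ ((t * v) ^ 2) (t (u x)) = u x' ∧
        ((t * v) ^ 3) (t (u x)) = t (u x)) ∧
      (((t * v) ^ 1) x' = u x ∧ ((t * v) ^ 3) x' = x') := by
    intro v v3 v4 v5 v6 vo
    have q1 : v (t x') = t (u x') := by rw [vo _ hmem.1, l2]
    have q2 : v (t (u x')) = t x' := by rw [vo _ hmem.2, ← l2, invol_apply H.uu]
    simp only [pow_succ, pow_zero, one_mul, Perm.mul_apply, v3, v4, v5, v6, q1, q2, invol_apply H.tt,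
      and_self]
  have hs : ∀ z w, ¬ Good (t * u) z → u z = w → s z = w := fun z w hz e => by rw [← H.bad z hz, e]
  obtain ⟨v, hI, vo, ⟨v1, v2, v3, v4, v5, v6⟩, hbad⟩ := H.hex_move nd (invol_apply H.uu x) hu2 hu3
    (hs _ _ b1 (invol_apply H.uu x)) (hs _ _ b2 hu2) (hs _ _ c1 hu3)
    (fun v v1 v2 v3 v4 v5 v6 vo d hd => by
      obtain ⟨⟨-, e2, e3⟩, f1, f3⟩ := cyc v v3 v4 v5 v6 vo
      simp only [List.mem_cons, List.not_mem_nil, or_false] at hd
      rcases hd with rfl | rfl | rfl | rfl | rfl | rfl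
      · rw [← f1]; exact good_cycle rfl f3 _
      · exact ⟨1, odd_one, by rw [pow_one, Perm.mul_apply, v1, invol_apply H.tt]⟩
      · exact ⟨1, odd_one, by rw [pow_one, Perm.mul_apply, v2]⟩
      · exact ⟨_, by decide, e3⟩
      · rw [← e2]; exact good_cycle rfl e3 _
      · exact ⟨_, by decide, f3⟩)
  obtain ⟨⟨e1, -, e3⟩, -⟩ := cyc v v3 v4 v5 v6 vo
  refine ⟨v, hI, fun z hz => (hbad z hz).2,
    ⟨x, hx, ⟨1, odd_one, by rw [pow_one, Perm.mul_apply, v1, invol_apply H.tt]⟩⟩, t x', ?_, ?_⟩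
  · rw [← e1]; exact good_cycle rfl e3 _
  · rw [vo _ hmem.1]; exact H.bad _ c2

end CfsgLib.H29.OddGraph
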