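import Cfsg.Agent.H29.Solubilizer.Entries
import Cfsg.Agent.H29.Dickson.Conditions
import Cfsg.Agent.H29.Dickson.Exceptions
import Cfsg.Agent.H29.OddGraph.Field

set_option autoImplicit false

/-!
Any two involutions of `PSL₂(q)` with product of even order have a common odd neighbour.
-/

namespace CfsgLib.H29.OddGraph

open Matrix CfsgLib.H29.Dickson CfsgLib.H29.Solubilizer

variable {F : Type*} [Field F] [Fintype F] (p : ℕ) [Fact p.Prime] [CharP F p]

omit [Fintype F] in
theorem pr_pow_eq_one {g : GL (Fin 2) F} {n : ℕ} {c : F}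
    (h : (g : Matrix (Fin 2) (Fin 2) F) ^ n = c • 1) : pr g ^ n = 1 := by
  rw [← map_pow, pr_eq_one_iff]
  have e : ((g ^ n : GL (Fin 2) F) : Matrix (Fin 2) (Fin 2) F) = c • 1 := by
    rw [Units.val_pow_eq_pow_val, h]
  simp [e]

omit [Fintype F] in
theorem odd_of_trace_two (hp : p ≠ 2) {A B C D : F} (h : A * D - B * C = 1)
    (ht : (A + D) ^ 2 = 4) : Odd (orderOf (E A B C D h)) := by
  have hpr : p.Prime := Fact.out
  have h2 : (2 : F) ≠ 0 := by
    intro e
    exact hp ((Nat.prime_dvd_prime_iff_eq Fact.out Nat.prime_two).mp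
      ((CharP.cast_eq_zero_iff F p 2).mp (by exact_mod_cast e)))
  set t := (A + D) / 2 with htd
  set M : Matrix (Fin 2) (Fin 2) F := !![A, B; C, D] with hM
  have hN : (M - t • 1) * (M - t • 1) = 0 := by
    ext i j
    fin_cases i <;> fin_cases j <;>
      simp [hM, htd, Matrix.mul_apply, Fin.sum_univ_two] <;> field_simp
    · linear_combination ht - 4 * h
    · ring
    · ring
    · linear_combination ht - 4 * h
  have hMp : M ^ p = t ^ p • 1 := by
    haveI := Fact.mk hpr
    have e := add_pow_expChar_pow_of_commute (R := Matrix (Fin 2) (Fin 2) F) (p := p) (n := 1)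
      (x := M - t • 1) (y := t • 1) (((Commute.one_right _).smul_right t))
    obtain ⟨k, hk⟩ : ∃ k, p = 2 + k := ⟨p - 2, by have := hpr.two_le; omega⟩
    rw [sub_add_cancel, pow_one, smul_pow, one_pow, show (M - t • 1) ^ p = 0 by
      rw [hk, pow_add, pow_two, hN, zero_mul], zero_add] at e
    exact e
  exact (hpr.odd_of_ne_two hp).of_dvd_nat
    (orderOf_dvd_of_pow_eq_one (pr_pow_eq_one (g := el A B C D (by rw [h]; exact one_ne_zero)) hMp))

include p in
theorem odd_of_disc (hns : ¬ IsSquare (-1 : F)) {A B C D r : F} (h : A * D - B * C = 1)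
    (hr0 : r ≠ 0) (ht : (A + D) ^ 2 - 4 = r ^ 2) : Odd (orderOf (E A B C D h)) := by
  have h2 : (2 : F) ≠ 0 := fun e => hns ⟨1, by
    rw [mul_one, neg_eq_iff_add_eq_zero, one_add_one_eq_two, e]⟩
  set l := (A + D - r) / 2 with hl
  set M : Matrix (Fin 2) (Fin 2) F := !![A, B; C, D] with hM
  have hN : (M - l • 1) * (M - l • 1) = r • (M - l • 1) := by
    ext i j
    fin_cases i <;> fin_cases j <;>
      simp [hM, hl, Matrix.mul_apply, Fin.sum_univ_two] <;> field_simp
    · linear_combination ht - 4 * h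
    · ring
    · ring
    · linear_combination ht - 4 * h
  have hNk : ∀ k : ℕ, (M - l • 1) ^ (k + 1) = r ^ k • (M - l • 1) := by
    intro k
    induction k with
    | zero => simp
    | succ k ih => rw [pow_succ, ih, smul_mul_assoc, hN, smul_smul, ← pow_succ]
  obtain ⟨n, -, hq⟩ := exists_deg (F := F) p
  have hq1 : 1 ≤ Fintype.card F := Fintype.card_pos
  have hMq : M ^ Fintype.card F = M := by
    have e := add_pow_expChar_pow_of_commute (R := Matrix (Fin 2) (Fin 2) F) (p := p) (n := n)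
      (x := M - l • 1) (y := l • 1) (((Commute.one_right _).smul_right l))
    rw [← hq, sub_add_cancel, smul_pow, one_pow, FiniteField.pow_card,
      show (M - l • 1) ^ Fintype.card F = M - l • 1 by
        rw [show Fintype.card F = Fintype.card F - 1 + 1 by omega, hNk,
          FiniteField.pow_card_sub_one_eq_one r hr0, one_smul], sub_add_cancel] at e
    exact e
  set m := (Fintype.card F - 1) / 2 with hm
  have hmod : Fintype.card F % 4 = 3 := by
    by_contra h'
    exact hns (FiniteField.isSquare_neg_one_iff.mpr h')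
  have hm2 : Fintype.card F = m + m + 1 := by omega
  set g := el A B C D (by rw [h]; exact one_ne_zero) with hg
  have hgM : (g : Matrix (Fin 2) (Fin 2) F) = M := el_coe _ _ _ _ _
  have hsq : (g ^ m) * (g ^ m) = 1 := by
    have e : g ^ (m + m) * g = 1 * g := by
      rw [← pow_succ, ← hm2, one_mul]
      exact Units.ext (by rw [Units.val_pow_eq_pow_val, hgM, hMq])
    rw [← pow_add]
    exact mul_right_cancel e
  set X := g ^ m with hX
  have hdet : X 0 0 * X 1 1 - X 0 1 * X 1 0 = 1 := by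
    rw [← det_fin_two, hX, Units.val_pow_eq_pow_val, det_pow, hgM, hM, det_fin_two_of, h, one_pow]
  have e00 := congrArg (fun Y : GL (Fin 2) F => Y 0 0) hsq
  have e01 := congrArg (fun Y : GL (Fin 2) F => Y 0 1) hsq
  have e10 := congrArg (fun Y : GL (Fin 2) F => Y 1 0) hsq
  have e11 := congrArg (fun Y : GL (Fin 2) F => Y 1 1) hsq
  simp only [gl_mul_apply, Units.val_one, one_apply_eq, one_apply_ne (by decide : (0 : Fin 2) ≠ 1),
    one_apply_ne (by decide : (1 : Fin 2) ≠ 0)] at e00 e01 e10 e11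
  have hsum : X 0 0 + X 1 1 ≠ 0 := fun e => h2 (by linear_combination (X 0 0) * e - e00 - hdet)
  have hone : pr X = 1 := by
    rw [pr_eq_one_iff]
    refine ⟨?_, ?_, ?_⟩
    · exact (mul_eq_zero.mp (show X 0 1 * (X 0 0 + X 1 1) = 0 by linear_combination e01)).resolve_right hsum
    · exact (mul_eq_zero.mp (show X 1 0 * (X 0 0 + X 1 1) = 0 by linear_combination e10)).resolve_right hsum
    · exact sub_eq_zero.mp ((mul_eq_zero.mp
        (show (X 0 0 - X 1 1) * (X 0 0 + X 1 1) = 0 by linear_combination e00 - e11)).resolve_right hsum)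
  rw [hX, map_pow] at hone
  exact (Nat.odd_iff.mpr (by omega : m % 2 = 1)).of_dvd_nat (orderOf_dvd_of_pow_eq_one hone)

theorem exists_invol {y : P2 F} (hy : y ∈ W F) (h1 : y ≠ 1) (h2 : y * y = 1) :
    ∃ a b c, ∃ h : a * -a - b * c = 1, y = E a b c (-a) h := by
  obtain ⟨a, b, c, d, h, rfl⟩ := exists_E hy
  obtain rfl : d = -a := by
    linear_combination ((E_sq_eq_one_iff _ _ _ _ h).mp h2).resolve_right h1
  exact ⟨a, b, c, h, rfl⟩

omit [Fintype F] in
theorem invol_props {a b c : F} (h : a * -a - b * c = 1) (hn : ¬ (b = 0 ∧ c = 0 ∧ a = -a)) :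
    E a b c (-a) h ∈ W F ∧ E a b c (-a) h ≠ 1 ∧ E a b c (-a) h * E a b c (-a) h = 1 :=
  ⟨E_mem_W _ _ _ _ _, fun e => hn ((E_eq_one_iff _ _ _ _ h).mp e),
    (E_sq_eq_one_iff _ _ _ _ h).mpr (Or.inl (add_neg_cancel a))⟩

/-- The odd characteristic case. -/
theorem exists_between_odd (hp : p ≠ 2) (h4 : 4 ≤ Fintype.card F) {a1 b1 c1 a2 b2 c2 : F}
    (h1 : a1 * -a1 - b1 * c1 = 1) (h2 : a2 * -a2 - b2 * c2 = 1)
    (hev : ¬ Odd (orderOf (E a1 b1 c1 (-a1) h1 * E a2 b2 c2 (-a2) h2))) :
    ∃ u ∈ W F, u ≠ 1 ∧ u * u = 1 ∧ Odd (orderOf (E a1 b1 c1 (-a1) h1 * u)) ∧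
      Odd (orderOf (u * E a2 b2 c2 (-a2) h2)) := by
  have two : (2 : F) ≠ 0 := by
    intro e
    exact hp ((Nat.prime_dvd_prime_iff_eq Fact.out Nat.prime_two).mp
      ((CharP.cast_eq_zero_iff F p 2).mp (by exact_mod_cast e)))
  set c := -(2 * a1 * a2 + b1 * c2 + c1 * b2) / 2 with hc
  rw [E_mul] at hev
  have hc2 : c ^ 2 ≠ 1 := fun e => hev (odd_of_trace_two p hp _ (by
    rw [hc] at e; field_simp at e; linear_combination e))
  -- the parameters
  obtain ⟨a, r, z, c', hcc, har, hz, hodd⟩ : ∃ a r z c' : F, (c' = c ∨ c' = -c) ∧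
      a ^ 2 = 1 + r ^ 2 ∧ z ^ 2 * ((1 - c') * (1 + c') ^ 2) = -((1 - c') + 2 * r ^ 2) ∧
      ∀ {A B C D : F} (h : A * D - B * C = 1), (A + D) ^ 2 = (2 * a) ^ 2 →
        Odd (orderOf (E A B C D h)) := by
    by_cases hns : IsSquare (-1 : F)
    · obtain ⟨i, hi⟩ := hns
      refine ⟨1, 0, i / (1 + c), c, Or.inl rfl, by ring, ?_,
        fun h ht => odd_of_trace_two p hp h (by linear_combination ht)⟩
      have : 1 + c ≠ 0 := fun e => hc2 (by rw [eq_neg_of_add_eq_zero_right e]; ring)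
      field_simp
      linear_combination (1 - c) * -hi
    · have hsq : IsSquare (1 - c ^ 2) := by
        classical
        by_contra hn
        have hc20 : c ^ 2 - 1 ≠ 0 := sub_ne_zero.mpr hc2
        obtain ⟨r, hr⟩ : IsSquare (c ^ 2 - 1) := by
          refine (quadraticChar_one_iff_isSquare hc20).mp ?_
          rw [show c ^ 2 - 1 = -1 * (1 - c ^ 2) by ring, map_mul,
            quadraticChar_neg_one_iff_not_isSquare.mpr hns,
            quadraticChar_neg_one_iff_not_isSquare.mpr hn]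
          norm_num
        have hr0 : r ≠ 0 := fun e => hc20 (by rw [hr, e, mul_zero])
        refine hev (odd_of_disc p hns _ (mul_ne_zero two hr0) ?_)
        rw [hc] at hr
        field_simp at hr
        linear_combination hr
      obtain ⟨a, r, s, c', hcc, hr0, har, hs⟩ :=
        exists_param hns h4 hsq (sub_ne_zero.mpr (Ne.symm hc2))
      refine ⟨a, r, s / ((1 - c') * (1 + c')), c', hcc, har, ?_,
        fun h ht => odd_of_disc p hns h (mul_ne_zero two hr0)
          (by linear_combination ht + 4 * har)⟩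
      have hcsq : c' ^ 2 = c ^ 2 := by rcases hcc with e | e <;> rw [e] <;> ring
      have e1 : 1 - c' ≠ 0 := fun e => hc2 (by linear_combination (-1 - c') * e - hcsq)
      have e2 : 1 + c' ≠ 0 := fun e => hc2 (by linear_combination (c' - 1) * e - hcsq)
      field_simp
      linear_combination hs
  obtain ⟨σ, hσ, rfl⟩ : ∃ σ : F, σ ^ 2 = 1 ∧ c' = σ * c := by
    rcases hcc with rfl | rfl
    · exact ⟨1, by ring, by ring⟩
    · exact ⟨-1, by ring, by ring⟩
  have hk : 1 + σ * c ≠ 0 := fun e => hc2 (by linear_combination (σ * c - 1) * e - c ^ 2 * hσ)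
  obtain ⟨x, e⟩ : ∃ x, x * (1 + σ * c) = a := ⟨a / (1 + σ * c), div_mul_cancel₀ _ hk⟩
  have e' : 2 * a1 * a2 + b1 * c2 + c1 * b2 = -2 * c := by rw [hc]; field_simp
  obtain ⟨w, hw⟩ : ∃ w, 2 * w = b1 * c2 - c1 * b2 :=
    ⟨(b1 * c2 - c1 * b2) / 2, mul_div_cancel₀ _ two⟩
  clear_value c
  set A := x * (a1 + σ * a2) + z * σ * w with hA
  set B := x * (b1 + σ * b2) + z * σ * (a1 * b2 - b1 * a2) with hB
  set C := x * (c1 + σ * c2) + z * σ * (c1 * a2 - a1 * c2) with hC
  have htr1 : 2 * a1 * A + b1 * C + c1 * B = -2 * a := by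
    rw [hA, hB, hC]
    linear_combination -2 * x * h1 + x * σ * e' - 2 * e + z * σ * a1 * hw
  have htr2 : 2 * A * a2 + B * c2 + C * b2 = -2 * a * σ := by
    rw [hA, hB, hC]
    linear_combination x * e' - 2 * x * σ * h2 - 2 * σ * e + 2 * x * c * hσ + z * σ * a2 * hw
  have hdet : A * -A - B * C = 1 := by
    have hS : (a1 + σ * a2) * -(a1 + σ * a2) - (b1 + σ * b2) * (c1 + σ * c2) = 2 * (1 + σ * c) := by
      linear_combination h1 + σ ^ 2 * h2 + hσ - σ * e'
    have h4' : (4 : F) ≠ 0 := by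
      rw [show (4 : F) = 2 * 2 by norm_num]; exact mul_ne_zero two two
    have hN : w * -w - (a1 * b2 - b1 * a2) * (c1 * a2 - a1 * c2) = 1 - c ^ 2 := by
      refine mul_left_cancel₀ h4' ?_
      linear_combination 4 * (a2 * -a2 - b2 * c2) * h1 + 4 * h2 -
        (2 * w + (b1 * c2 - c1 * b2)) * hw - ((2 * a1 * a2 + b1 * c2 + c1 * b2) - 2 * c) * e'
    have hA' : A * -A - B * C = x ^ 2 * (2 * (1 + σ * c)) + z ^ 2 * σ ^ 2 * (1 - c ^ 2) := by
      rw [hA, hB, hC]
      linear_combination x ^ 2 * hS + z ^ 2 * σ ^ 2 * hN - x * z * σ * (a1 + σ * a2) * hw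
    rw [hA']
    refine mul_right_cancel₀ hk ?_
    linear_combination (2 * (x * (1 + σ * c) + a)) * e + 2 * har + hz +
      z ^ 2 * (1 + σ * c) * hσ
  obtain ⟨huW, hu1, hu2⟩ := invol_props hdet (fun hn => by
    obtain ⟨rfl', hC0, hAA⟩ := hn
    have : A = 0 := (mul_eq_zero.mp (show 2 * A = 0 by linear_combination hAA)).resolve_left two
    rw [this, rfl'] at hdet
    simp at hdet)
  refine ⟨_, huW, hu1, hu2, ?_, ?_⟩
  · rw [E_mul]
    exact hodd _ (by linear_combination (2 * a1 * A + b1 * C + c1 * B - 2 * a) * htr1)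
  · rw [E_mul]
    exact hodd _ (by
      linear_combination (2 * A * a2 + B * c2 + C * b2 - 2 * a * σ) * htr2 + 4 * a ^ 2 * hσ)

theorem odd_or_commute (h2 : (2 : F) = 0) {s t : P2 F} (hs : s * s = 1) (ht : t * t = 1)
    (hev : ¬ Odd (orderOf (s * t))) : s * t = t * s := by
  have h22 : CharP F 2 := CharTwo.of_one_ne_zero_of_two_eq_zero one_ne_zero h2
  haveI := Fact.mk Nat.prime_two
  have hsi : s⁻¹ = s := inv_eq_of_mul_eq_one_right hs
  have hti : t⁻¹ = t := inv_eq_of_mul_eq_one_right ht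
  suffices h : (s * t) * (s * t) = 1 by
    have := inv_eq_of_mul_eq_one_right h
    rwa [_root_.mul_inv_rev, hsi, hti, eq_comm] at this
  by_contra hn
  have hn1 : s * t ≠ 1 := fun e => hn (by rw [e, one_mul])
  obtain ⟨a, b, e, he, -, -, hd, -⟩ := orderOf_cases 2 hn1 (by rw [pow_two]; exact hn)
  have hq := Nat.even_iff.mp (two_eq_zero_iff.mp h2)
  have := Fintype.one_lt_card (α := F)
  exact hev ((Nat.odd_iff.mpr (by omega : e % 2 = 1)).of_dvd_nat hd)

/-- The even characteristic case. -/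
theorem exists_between_even (h2 : (2 : F) = 0) {a1 b1 c1 a2 b2 c2 : F}
    (h1 : a1 * -a1 - b1 * c1 = 1) (h2' : a2 * -a2 - b2 * c2 = 1)
    (hs : E a1 b1 c1 (-a1) h1 ≠ 1) (ht : E a2 b2 c2 (-a2) h2' ≠ 1)
    (hev : ¬ Odd (orderOf (E a1 b1 c1 (-a1) h1 * E a2 b2 c2 (-a2) h2'))) :
    ∃ u ∈ W F, u ≠ 1 ∧ u * u = 1 ∧ Odd (orderOf (E a1 b1 c1 (-a1) h1 * u)) ∧
      Odd (orderOf (u * E a2 b2 c2 (-a2) h2')) := by
  have hsq := (E_sq_eq_one_iff _ _ _ _ h1).mpr (Or.inl (add_neg_cancel a1))
  have htq := (E_sq_eq_one_iff _ _ _ _ h2').mpr (Or.inl (add_neg_cancel a2))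
  have hng : ∀ x : F, -x = x := fun x => by linear_combination -x * h2
  have hne : ∀ {a b c : F} (h : a * -a - b * c = 1), E a b c (-a) h ≠ 1 → b ≠ 0 ∨ c ≠ 0 := by
    intro a b c h hn
    by_contra e
    push Not at e
    exact hn ((E_eq_one_iff _ _ _ _ h).mpr ⟨e.1, e.2, (hng a).symm⟩)
  -- non-commuting criterion
  have hnc : ∀ {a b c a' b' c' : F} (h : a * -a - b * c = 1) (h' : a' * -a' - b' * c' = 1),
      E a b c (-a) h * E a' b' c' (-a') h' = E a' b' c' (-a') h' * E a b c (-a) h →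
        b * c' = c * b' := by
    intro a b c a' b' c' h h' e
    rw [E_mul, E_mul] at e
    rcases (E_eq_iff _ _).mp e with ⟨e1, -⟩ | ⟨e1, -⟩
    · linear_combination -e1
    · linear_combination e1 - (c * b' + a * a') * h2
  have hc := hnc h1 h2' (odd_or_commute h2 hsq htq hev)
  obtain ⟨b', c', hn1, hbc⟩ : ∃ b' c' : F, b1 * c' ≠ c1 * b' ∧ b' * c' = 0 := by
    by_cases hc1 : c1 = 0
    · exact ⟨0, 1, by simpa [hc1] using (hne h1 hs).resolve_right (not_not.mpr hc1), zero_mul _⟩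
    · exact ⟨1, 0, by simpa using (Ne.symm hc1), mul_zero _⟩
  have hn2 : b2 * c' ≠ c2 * b' := by
    intro e
    rcases hne h2' ht with hb | hc'
    · refine hn1 (mul_left_cancel₀ hb ?_)
      linear_combination b1 * e + b' * hc
    · refine hn1 (mul_left_cancel₀ hc' ?_)
      linear_combination c1 * e + c' * hc
  have hdet : (1 : F) * -1 - b' * c' = 1 := by rw [hbc, hng]; ring
  obtain ⟨huW, hu1, hu2⟩ := invol_props hdet (fun hn => hn1 (by rw [hn.1, hn.2.1]; ring))
  refine ⟨_, huW, hu1, hu2, ?_, ?_⟩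
  · by_contra hodd
    exact hn1 (hnc h1 hdet (odd_or_commute h2 hsq hu2 hodd))
  · by_contra hodd
    exact hn2 (hnc h2' hdet (odd_or_commute h2 hu2 htq hodd).symm)

theorem exists_between (h4 : 4 ≤ Fintype.card F) {s t : P2 F} (hsW : s ∈ W F) (hs1 : s ≠ 1)
    (hs : s * s = 1) (htW : t ∈ W F) (ht1 : t ≠ 1) (ht : t * t = 1)
    (hev : ¬ Odd (orderOf (s * t))) :
    ∃ u ∈ W F, u ≠ 1 ∧ u * u = 1 ∧ Odd (orderOf (s * u)) ∧ Odd (orderOf (u * t)) := by
  obtain ⟨q, hq, hchar, -⟩ := exists_p (F := F)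
  haveI := Fact.mk hq
  obtain ⟨a1, b1, c1, h1, rfl⟩ := exists_invol hsW hs1 hs
  obtain ⟨a2, b2, c2, h2, rfl⟩ := exists_invol htW ht1 ht
  by_cases hq2 : q = 2
  · subst hq2
    exact exists_between_even (CharTwo.two_eq_zero) h1 h2 hs1 ht1 hev
  · exact exists_between_odd q hq2 h4 h1 h2 hev

theorem exists_commuting (h4 : 4 ≤ Fintype.card F) {t : P2 F} (htW : t ∈ W F) (ht1 : t ≠ 1)
    (ht : t * t = 1) : ∃ y ∈ W F, y ≠ 1 ∧ y * y = 1 ∧ y ≠ t ∧ y * t = t * y := by
  classical
  obtain ⟨a, b, c, h, rfl⟩ := exists_invol htW ht1 ht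
  by_cases h2 : (2 : F) = 0
  · have hng : ∀ x : F, -x = x := fun x => by linear_combination -x * h2
    have hbc : ¬ (b = 0 ∧ c = 0) := fun e =>
      ht1 ((E_eq_one_iff _ _ _ _ h).mpr ⟨e.1, e.2, (hng a).symm⟩)
    obtain ⟨l, -, hl⟩ := Finset.exists_mem_notMem_of_card_lt_card (s := ({0, 1} : Finset F))
      (t := Finset.univ) (lt_of_le_of_lt Finset.card_le_two (by rw [Finset.card_univ]; omega))
    simp only [Finset.mem_insert, Finset.mem_singleton, not_or] at hl
    obtain ⟨e, he⟩ := sqrt_exists_two h2 (1 + l * b * (l * c))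
    have hdet : e * -e - l * b * (l * c) = 1 := by rw [hng]; linear_combination -he
    obtain ⟨huW, hu1, hu2⟩ := invol_props hdet (fun hn =>
      hbc ⟨(mul_eq_zero.mp hn.1).resolve_left hl.1, (mul_eq_zero.mp hn.2.1).resolve_left hl.1⟩)
    refine ⟨_, huW, hu1, hu2, fun e' => ?_, ?_⟩
    · rcases (E_eq_iff _ _).mp e' with ⟨-, eb, ec, -⟩ | ⟨-, eb, ec, -⟩
      all_goals
        refine hbc ⟨?_, ?_⟩
        · refine (mul_eq_zero.mp (show (l - 1) * b = 0 from ?_)).resolve_left (sub_ne_zero.mpr hl.2)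
          first | linear_combination -eb | linear_combination eb - b * h2 | linear_combination -eb - b * h2
        · refine (mul_eq_zero.mp (show (l - 1) * c = 0 from ?_)).resolve_left (sub_ne_zero.mpr hl.2)
          first | linear_combination -ec | linear_combination ec - c * h2 | linear_combination -ec - c * h2
    · rw [E_mul, E_mul, E_eq_iff]
      exact Or.inl ⟨by ring, by linear_combination (l * b * a - e * b) * h2,
        by linear_combination (e * c - l * c * a) * h2, by ring⟩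
  · obtain ⟨a', b', c', hd, hanti⟩ : ∃ a' b' c' : F, a' * -a' - b' * c' = 1 ∧
        2 * a * a' + b * c' + c * b' = 0 := by
      by_cases hb : b = 0
      · subst hb
        have ha : a ≠ 0 := by rintro rfl; simp at h
        refine ⟨-c / (2 * a), 1, -(1 + (-c / (2 * a)) ^ 2), by ring, by field_simp; ring⟩
      · obtain ⟨p, hp, hchar, -⟩ := exists_p (F := F)
        haveI := Fact.mk hp
        obtain ⟨x, m, hxm, -⟩ := exists_sq_add_sq (F := F) p
        refine ⟨x + a * m, b * m, -(2 * a * (x + a * m) + c * (b * m)) / b, ?_, by field_simp; ring⟩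
        field_simp
        linear_combination -hxm - m ^ 2 * h
    obtain ⟨huW, hu1, hu2⟩ := invol_props hd (fun hn => by
      have : a' = 0 := (mul_eq_zero.mp (show 2 * a' = 0 by linear_combination hn.2.2)).resolve_left h2
      rw [this, hn.1] at hd; simp at hd)
    refine ⟨_, huW, hu1, hu2, fun e' => ?_, ?_⟩
    · rcases (E_eq_iff _ _).mp e' with ⟨ea, eb, ec, -⟩ | ⟨ea, eb, ec, -⟩
      · exact h2 (by linear_combination -hanti - 2 * h - 2 * a * ea - c * eb - b * ec)
      · exact h2 (by linear_combination hanti - 2 * h - 2 * a * ea - c * eb - b * ec)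
    · rw [E_mul, E_mul, E_eq_iff]
      exact Or.inr ⟨by linear_combination hanti, by ring, by ring, by linear_combination hanti⟩

end CfsgLib.H29.OddGraph
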