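import Mathlib

set_option autoImplicit false

/-!
Periods of points under a permutation and a splicing lemma.
-/

namespace CfsgLib.H29.OddGraph

open Equiv

variable {α : Type*} [Fintype α] [DecidableEq α]

/-- The period of a point. -/
noncomputable def per (ρ : Perm α) (x : α) : ℕ := Function.minimalPeriod (⇑ρ) x

/-- A point of odd period. -/
def Good (ρ : Perm α) (x : α) : Prop := ∃ N, Odd N ∧ (ρ ^ N) x = x

theorem pow_apply_eq_self_iff (ρ : Perm α) (x : α) (i : ℕ) : (ρ ^ i) x = x ↔ per ρ x ∣ i := by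
  rw [per, ← Function.isPeriodicPt_iff_minimalPeriod_dvd, Perm.coe_pow]
  rfl

theorem pow_per (ρ : Perm α) (x : α) : (ρ ^ per ρ x) x = x := (pow_apply_eq_self_iff ρ x _).2 dvd_rfl

theorem per_pos (ρ : Perm α) (x : α) : 0 < per ρ x :=
  Nat.pos_of_dvd_of_pos ((pow_apply_eq_self_iff ρ x _).1 (by rw [pow_orderOf_eq_one]; rfl))
    (orderOf_pos ρ)

theorem good_iff {ρ : Perm α} {x : α} : Good ρ x ↔ Odd (per ρ x) := by
  refine ⟨fun ⟨N, hN, h⟩ => hN.of_dvd_nat ((pow_apply_eq_self_iff ρ x N).1 h),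
    fun h => ⟨_, h, pow_per ρ x⟩⟩

theorem pow_ne_self {ρ : Perm α} {x : α} {i : ℕ} (h0 : 0 < i) (h : i < per ρ x) : (ρ ^ i) x ≠ x :=
  fun e => absurd (Nat.le_of_dvd h0 ((pow_apply_eq_self_iff ρ x i).1 e)) (not_le_of_gt h)

theorem pow_inj {ρ : Perm α} {x : α} {i j : ℕ} (hi : i < per ρ x) (hj : j < per ρ x)
    (h : (ρ ^ i) x = (ρ ^ j) x) : i = j := by
  wlog hij : i ≤ j generalizing i j
  · exact (this hj hi h.symm (le_of_not_ge hij)).symm
  by_contra hne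
  obtain ⟨d, rfl⟩ := Nat.exists_eq_add_of_le hij
  rw [pow_add, Perm.mul_apply] at h
  exact pow_ne_self (by omega) (by omega) ((ρ ^ i).injective h).symm

theorem per_eq_of_iff {ρ : Perm α} {x y : α} (h : ∀ i : ℕ, (ρ ^ i) x = x ↔ (ρ ^ i) y = y) :
    per ρ x = per ρ y :=
  Nat.dvd_antisymm ((pow_apply_eq_self_iff ρ x _).1 ((h _).2 (pow_per ρ y)))
    ((pow_apply_eq_self_iff ρ y _).1 ((h _).1 (pow_per ρ x)))

theorem per_pow (ρ : Perm α) (x : α) (j : ℕ) : per ρ ((ρ ^ j) x) = per ρ x :=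
  per_eq_of_iff fun i => by
    rw [← Perm.mul_apply, ← pow_add, add_comm i j, pow_add, Perm.mul_apply]
    exact (ρ ^ j).injective.eq_iff

theorem pow_back (ρ : Perm α) (x : α) {i : ℕ} (hi : i ≤ per ρ x) :
    (ρ ^ (per ρ x - i)) ((ρ ^ i) x) = x := by
  rw [← Perm.mul_apply, ← pow_add, Nat.sub_add_cancel hi, pow_per]

theorem odd_orderOf {ρ : Perm α} (h : ∀ x, Good ρ x) : Odd (orderOf ρ) := by
  have hd : orderOf ρ ∣ ∏ x, per ρ x := orderOf_dvd_of_pow_eq_one (Equiv.ext fun x =>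
    (pow_apply_eq_self_iff ρ x _).2 (Finset.dvd_prod_of_mem _ (Finset.mem_univ x)))
  refine Odd.of_dvd_nat ?_ hd
  exact Finset.prod_induction _ Odd (fun a b => Odd.mul) odd_one fun x _ => good_iff.1 (h x)

theorem good_of_odd {ρ : Perm α} (h : Odd (orderOf ρ)) (x : α) : Good ρ x :=
  ⟨_, h, by rw [pow_orderOf_eq_one]; rfl⟩

/-- While avoiding the support of `π` the product follows `ρ`. -/
theorem seg {ρ π : Perm α} {y : α} : ∀ k : ℕ, (∀ i, i < k → π ((ρ ^ i) y) = (ρ ^ i) y) →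
    ((ρ * π) ^ k) y = (ρ ^ k) y
  | 0, _ => rfl
  | k + 1, h => by
    rw [pow_succ', Perm.mul_apply, seg k (fun i hi => h i (by omega)), Perm.mul_apply, h k (by omega),
      pow_succ' ρ, Perm.mul_apply]

/-- Points of odd period stay so. -/
theorem good_splice {ρ π : Perm α} (D : Finset α) (hπ : ∀ x ∉ D, π x = x)
    (hD : ∀ d ∈ D, Good (ρ * π) d) {x : α} (hx : Good ρ x) : Good (ρ * π) x := by
  by_cases h : ∃ i, ((ρ * π) ^ i) x ∈ D
  · obtain ⟨i, hi⟩ := h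
    obtain ⟨N, hN, e⟩ := hD _ hi
    refine ⟨N, hN, ((ρ * π) ^ i).injective ?_⟩
    rw [← Perm.mul_apply, ← pow_add, add_comm, pow_add, Perm.mul_apply, e]
  · push Not at h
    have hs : ∀ k, ((ρ * π) ^ k) x = (ρ ^ k) x := by
      intro k
      induction k with
      | zero => rfl
      | succ k ih =>
        rw [pow_succ', Perm.mul_apply, Perm.mul_apply, hπ _ (h k), ih, pow_succ' ρ, Perm.mul_apply]
    obtain ⟨N, hN, e⟩ := hx
    exact ⟨N, hN, (hs N).trans e⟩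

theorem pow_chain {ρ : Perm α} {a b c : α} {i j : ℕ} (h1 : (ρ ^ i) a = b) (h2 : (ρ ^ j) b = c) :
    (ρ ^ (i + j)) a = c := by
  rw [add_comm, pow_add, Perm.mul_apply, h1, h2]

end CfsgLib.H29.OddGraph
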